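import Cfsg.Agent.H904.E7Lat

/-!
# The form of the lattice `E₇` and the contradiction (helper904)
-/

set_option autoImplicit false

namespace Cfsg.Agent.H904.E7Form

open Cfsg.Agent.H904.E7Lat

/-- The Cartan matrix of type `E₇`. -/
def E : Fin 7 → Fin 7 → ℤ := ![![2, 0, -1, 0, 0, 0, 0], ![0, 2, 0, -1, 0, 0, 0], ![-1, 0, 2, -1, 0, 0, 0],
  ![0, -1, -1, 2, -1, 0, 0], ![0, 0, 0, -1, 2, -1, 0], ![0, 0, 0, 0, -1, 2, -1], ![0, 0, 0, 0, 0, -1, 2]]

/-- the pairing with the simple coroots -/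
def pr (i : Fin 7) (y : V) : ℤ := ∑ k, E i k * y k

theorem pr_zero (y : V) : pr 0 y = 2 * y 0 - y 2 := by
  simp [pr, E, Fin.sum_univ_succ]; ring
theorem pr_one (y : V) : pr 1 y = 2 * y 1 - y 3 := by
  simp [pr, E, Fin.sum_univ_succ]; ring
theorem pr_two (y : V) : pr 2 y = - y 0 + 2 * y 2 - y 3 := by
  simp [pr, E, Fin.sum_univ_succ]; ring
theorem pr_three (y : V) : pr 3 y = - y 1 - y 2 + 2 * y 3 - y 4 := by
  simp [pr, E, Fin.sum_univ_succ]; ring
theorem pr_four (y : V) : pr 4 y = - y 3 + 2 * y 4 - y 5 := by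
  simp [pr, E, Fin.sum_univ_succ]; ring
theorem pr_five (y : V) : pr 5 y = - y 4 + 2 * y 5 - y 6 := by
  simp [pr, E, Fin.sum_univ_succ]; ring
theorem pr_six (y : V) : pr 6 y = - y 5 + 2 * y 6 := by
  simp [pr, E, Fin.sum_univ_succ]

/-- the invariant form -/
def bf (x y : V) : ℤ := ∑ i, x i * pr i y

theorem bf_eq (x y : V) : bf x y = 2 * (x 0 * y 0 + x 1 * y 1 + x 2 * y 2 + x 3 * y 3 + x 4 * y 4 + x 5 * y 5 +
    x 6 * y 6) - (x 0 * y 2 + x 2 * y 0) - (x 1 * y 3 + x 3 * y 1) - (x 2 * y 3 + x 3 * y 2) -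
    (x 3 * y 4 + x 4 * y 3) - (x 4 * y 5 + x 5 * y 4) - (x 5 * y 6 + x 6 * y 5) := by
  have h : bf x y = x 0 * pr 0 y + x 1 * pr 1 y + x 2 * pr 2 y + x 3 * pr 3 y + x 4 * pr 4 y + x 5 * pr 5 y +
      x 6 * pr 6 y := by
    simp only [bf, Fin.sum_univ_seven]
  rw [h, pr_zero, pr_one, pr_two, pr_three, pr_four, pr_five, pr_six]
  ring

theorem bf_symm (x y : V) : bf x y = bf y x := by rw [bf_eq, bf_eq]; ring

theorem bf_add (x y z : V) : bf x (y + z) = bf x y + bf x z := by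
  simp only [bf_eq, Pi.add_apply]; ring

theorem bf_smul (x y : V) (c : ℤ) : bf x (c • y) = c * bf x y := by
  simp only [bf_eq, Pi.smul_apply, smul_eq_mul]; ring

theorem bf_add' (x y z : V) : bf (y + z) x = bf y x + bf z x := by
  rw [bf_symm, bf_add, bf_symm x, bf_symm x]

theorem bf_smul' (x y : V) (c : ℤ) : bf (c • y) x = c * bf y x := by
  rw [bf_symm, bf_smul, bf_symm x]

theorem bf_neg (x y : V) : bf x (-y) = - bf x y := by
  simp only [bf_eq, Pi.neg_apply]; ring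

theorem bf_even (x : V) : ∃ m, bf x x = 2 * m := by
  rw [bf_eq]
  exact ⟨x 0 ^ 2 + x 1 ^ 2 + x 2 ^ 2 + x 3 ^ 2 + x 4 ^ 2 + x 5 ^ 2 + x 6 ^ 2 - x 0 * x 2 - x 1 * x 3 - x 2 * x 3 -
    x 3 * x 4 - x 4 * x 5 - x 5 * x 6, by ring⟩

theorem bf_twelve (x : V) : 12 * bf x x = 6 * (2 * x 6 - x 5) ^ 2 + 2 * (3 * x 5 - 2 * x 4) ^ 2 +
    (4 * x 4 - 3 * x 3) ^ 2 + 6 * (2 * x 0 - x 2) ^ 2 + 2 * (3 * x 2 - 2 * x 3) ^ 2 + 6 * (2 * x 1 - x 3) ^ 2 +
    x 3 ^ 2 := by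
  rw [bf_eq]; ring

theorem bf_pos {x : V} (hx : x ≠ 0) : 0 < bf x x := by
  by_contra hcon
  have h := bf_twelve x
  have h0 : 12 * bf x x ≤ 0 := by linarith
  have s1 := sq_nonneg (2 * x 6 - x 5)
  have s2 := sq_nonneg (3 * x 5 - 2 * x 4)
  have s3 := sq_nonneg (4 * x 4 - 3 * x 3)
  have s4 := sq_nonneg (2 * x 0 - x 2)
  have s5 := sq_nonneg (3 * x 2 - 2 * x 3)
  have s6 := sq_nonneg (2 * x 1 - x 3)
  have s7 := sq_nonneg (x 3)
  have e1 : 2 * x 6 - x 5 = 0 := by apply pow_eq_zero_iff (two_ne_zero) |>.1; linarith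
  have e2 : 3 * x 5 - 2 * x 4 = 0 := by apply pow_eq_zero_iff (two_ne_zero) |>.1; linarith
  have e3 : 4 * x 4 - 3 * x 3 = 0 := by apply pow_eq_zero_iff (two_ne_zero) |>.1; linarith
  have e4 : 2 * x 0 - x 2 = 0 := by apply pow_eq_zero_iff (two_ne_zero) |>.1; linarith
  have e5 : 3 * x 2 - 2 * x 3 = 0 := by apply pow_eq_zero_iff (two_ne_zero) |>.1; linarith
  have e6 : 2 * x 1 - x 3 = 0 := by apply pow_eq_zero_iff (two_ne_zero) |>.1; linarith
  have e7 : x 3 = 0 := by apply pow_eq_zero_iff (two_ne_zero) |>.1; linarith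
  apply hx
  funext i
  fin_cases i
  · show x 0 = 0; omega
  · show x 1 = 0; omega
  · show x 2 = 0; omega
  · show x 3 = 0; omega
  · show x 4 = 0; omega
  · show x 5 = 0; omega
  · show x 6 = 0; omega

/-- the radical modulo `2` -/
def Rd (z : V) : Prop := ∀ i, ∃ m, pr i z = 2 * m

def z0 : V := ![0, 1, 0, 0, 1, 0, 1]

theorem Rd_bf {z : V} (hz : Rd z) (x : V) : ∃ m, bf x z = 2 * m := by
  choose m hm using hz
  exact ⟨∑ i, x i * m i, by
    unfold bf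
    rw [Finset.mul_sum]
    exact Finset.sum_congr rfl fun i _ => by rw [hm i]; ring⟩

theorem Rd_of_bf {z : V} (h : ∀ x, ∃ m, bf x z = 2 * m) : Rd z := by
  intro i
  obtain ⟨m, hm⟩ := h (Pi.single i 1)
  refine ⟨m, ?_⟩
  rw [← hm]
  unfold bf
  rw [Finset.sum_eq_single i]
  · rw [Pi.single_eq_same, one_mul]
  · intro j _ hj
    rw [Pi.single_eq_of_ne hj, zero_mul]
  · intro h1; exact absurd (Finset.mem_univ i) h1

theorem Rd_z0 : Rd z0 := by
  intro i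
  fin_cases i
  · exact ⟨0, by decide⟩
  · exact ⟨1, by decide⟩
  · exact ⟨0, by decide⟩
  · exact ⟨-1, by decide⟩
  · exact ⟨1, by decide⟩
  · exact ⟨-1, by decide⟩
  · exact ⟨1, by decide⟩

/-- norms of the non-trivial class -/
theorem norm_z0 (u : V) : ∃ m, bf (z0 + (2 : ℤ) • u) (z0 + (2 : ℤ) • u) = 8 * m + 6 := by
  obtain ⟨a, ha⟩ := Rd_bf Rd_z0 u
  obtain ⟨b, hb⟩ := bf_even u
  refine ⟨a + b, ?_⟩
  have h0 : bf z0 z0 = 6 := by decide
  rw [bf_add, bf_add', bf_add', bf_smul, bf_smul, bf_smul', bf_smul', h0, bf_symm z0 u, ha, hb]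
  ring

theorem cases_Rd {z : V} (hz : Rd z) : (∃ u : V, z = (2 : ℤ) • u) ∨ ∃ u : V, z = z0 + (2 : ℤ) • u := by
  obtain ⟨m0, h0⟩ := hz 0
  obtain ⟨m1, h1⟩ := hz 1
  obtain ⟨m2, h2⟩ := hz 2
  obtain ⟨m3, h3⟩ := hz 3
  obtain ⟨m4, h4⟩ := hz 4
  obtain ⟨m5, h5⟩ := hz 5
  obtain ⟨m6, h6⟩ := hz 6
  rw [pr_zero] at h0
  rw [pr_one] at h1
  rw [pr_two] at h2
  rw [pr_three] at h3
  rw [pr_four] at h4
  rw [pr_five] at h5
  rw [pr_six] at h6
  rcases Int.even_or_odd' (z 1) with ⟨k, hk | hk⟩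
  · left
    refine ⟨![z 0 / 2, z 1 / 2, z 2 / 2, z 3 / 2, z 4 / 2, z 5 / 2, z 6 / 2], ?_⟩
    funext i
    fin_cases i
    · show z 0 = 2 * (z 0 / 2); omega
    · show z 1 = 2 * (z 1 / 2); omega
    · show z 2 = 2 * (z 2 / 2); omega
    · show z 3 = 2 * (z 3 / 2); omega
    · show z 4 = 2 * (z 4 / 2); omega
    · show z 5 = 2 * (z 5 / 2); omega
    · show z 6 = 2 * (z 6 / 2); omega
  · right
    refine ⟨![z 0 / 2, z 1 / 2, z 2 / 2, z 3 / 2, z 4 / 2, z 5 / 2, z 6 / 2], ?_⟩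
    funext i
    fin_cases i
    · show z 0 = 0 + 2 * (z 0 / 2); omega
    · show z 1 = 1 + 2 * (z 1 / 2); omega
    · show z 2 = 0 + 2 * (z 2 / 2); omega
    · show z 3 = 0 + 2 * (z 3 / 2); omega
    · show z 4 = 1 + 2 * (z 4 / 2); omega
    · show z 5 = 0 + 2 * (z 5 / 2); omega
    · show z 6 = 1 + 2 * (z 6 / 2); omega

/-- `2 X^* ≤ X`. -/
theorem two_dual {v : V} {b : ℤ} (h : ∀ x, ∃ m, bf x v = b * m) : ∃ u : V, (2 : ℤ) • v = b • u := by
  have h' : ∀ i, ∃ m, pr i v = b * m := by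
    intro i
    obtain ⟨m, hm⟩ := h (Pi.single i 1)
    refine ⟨m, ?_⟩
    rw [← hm]
    unfold bf
    rw [Finset.sum_eq_single i]
    · rw [Pi.single_eq_same, one_mul]
    · intro j _ hj
      rw [Pi.single_eq_of_ne hj, zero_mul]
    · intro h1; exact absurd (Finset.mem_univ i) h1
  obtain ⟨m0, h0⟩ := h' 0
  obtain ⟨m1, h1⟩ := h' 1
  obtain ⟨m2, h2⟩ := h' 2
  obtain ⟨m3, h3⟩ := h' 3
  obtain ⟨m4, h4⟩ := h' 4
  obtain ⟨m5, h5⟩ := h' 5
  obtain ⟨m6, h6⟩ := h' 6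
  rw [pr_zero] at h0
  rw [pr_one] at h1
  rw [pr_two] at h2
  rw [pr_three] at h3
  rw [pr_four] at h4
  rw [pr_five] at h5
  rw [pr_six] at h6
  refine ⟨![4*m0+4*m1+6*m2+8*m3+6*m4+4*m5+2*m6, 4*m0+7*m1+8*m2+12*m3+9*m4+6*m5+3*m6,
    6*m0+8*m1+12*m2+16*m3+12*m4+8*m5+4*m6, 8*m0+12*m1+16*m2+24*m3+18*m4+12*m5+6*m6,
    6*m0+9*m1+12*m2+18*m3+15*m4+10*m5+5*m6, 4*m0+6*m1+8*m2+12*m3+10*m4+8*m5+4*m6,
    2*m0+3*m1+4*m2+6*m3+5*m4+4*m5+3*m6], ?_⟩
  funext i
  fin_cases i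
  · show 2 * v 0 = b * (4*m0+4*m1+6*m2+8*m3+6*m4+4*m5+2*m6)
    linear_combination 4*h0+4*h1+6*h2+8*h3+6*h4+4*h5+2*h6
  · show 2 * v 1 = b * (4*m0+7*m1+8*m2+12*m3+9*m4+6*m5+3*m6)
    linear_combination 4*h0+7*h1+8*h2+12*h3+9*h4+6*h5+3*h6
  · show 2 * v 2 = b * (6*m0+8*m1+12*m2+16*m3+12*m4+8*m5+4*m6)
    linear_combination 6*h0+8*h1+12*h2+16*h3+12*h4+8*h5+4*h6
  · show 2 * v 3 = b * (8*m0+12*m1+16*m2+24*m3+18*m4+12*m5+6*m6)
    linear_combination 8*h0+12*h1+16*h2+24*h3+18*h4+12*h5+6*h6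
  · show 2 * v 4 = b * (6*m0+9*m1+12*m2+18*m3+15*m4+10*m5+5*m6)
    linear_combination 6*h0+9*h1+12*h2+18*h3+15*h4+10*h5+5*h6
  · show 2 * v 5 = b * (4*m0+6*m1+8*m2+12*m3+10*m4+8*m5+4*m6)
    linear_combination 4*h0+6*h1+8*h2+12*h3+10*h4+8*h5+4*h6
  · show 2 * v 6 = b * (2*m0+3*m1+4*m2+6*m3+5*m4+4*m5+3*m6)
    linear_combination 2*h0+3*h1+4*h2+6*h3+5*h4+4*h5+3*h6

/-- **The contradiction**: no isometry `g` of the lattice `E₇`, trivial on the discriminant group, has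
`g² + 1 = c(·) v` with `c` onto. -/
theorem contra {g : Module.End ℤ V} (hB : ∀ x y, bf (g x) (g y) = bf x y)
    (hD : ∀ z, Rd z → ∃ u : V, g z = z + (2 : ℤ) • u) {v : V} {c : V →ₗ[ℤ] ℤ} (hv : v ≠ 0) {y : V} (hy : c y = 1)
    (h : ∀ x, g (g x) + x = c x • v) : False := by
  have hR : ∀ x, g (g x) = c x • v + (-1 : ℤ) • x := by
    intro x
    rw [← h x, neg_one_smul]; abel
  have hBR : ∀ x y, bf (g (g x)) (g (g y)) = bf x y := fun x y => by rw [hB, hB]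
  have hb := bf_pos hv
  set b := bf v v with hbdef
  have hBB : ∀ x y, (c x * c y) * b - c x * bf v y - c y * bf v x + bf x y = bf x y := by
    intro x y
    have h1 := hBR x y
    rw [hR, hR] at h1
    simp only [bf_add, bf_add', bf_smul, bf_smul'] at h1
    rw [← hbdef, bf_symm x v] at h1
    linear_combination h1
  have hcv : c v = 2 := by
    have h1 := hBB v v
    rw [← hbdef] at h1
    have h2 : (c v * (c v - 2)) * b = 0 := by linear_combination h1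
    rcases mul_eq_zero.1 h2 with h3 | h3
    · rcases mul_eq_zero.1 h3 with h4 | h4
      · exfalso
        have h5 := hBB v y
        rw [h4, hy, ← hbdef] at h5
        linarith
      · linarith
    · omega
  have hcb : ∀ x, c x * b = 2 * bf v x := by
    intro x
    have h1 := hBB v x
    rw [hcv, ← hbdef] at h1
    linarith
  rcases Int.even_or_odd' (c z0) with ⟨m, hm | hm⟩
  · -- the even case
    set z := z0 + (2 : ℤ) • ((-m) • y) with hz
    have hcz : c z = 0 := by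
      rw [hz, map_add, map_smul, map_smul, hy, hm]
      simp
    have hzR : Rd z := by
      intro i
      obtain ⟨a, ha⟩ := Rd_z0 i
      refine ⟨a - m * pr i y, ?_⟩
      have : pr i z = pr i z0 + 2 * (-m * pr i y) := by
        unfold pr
        rw [Finset.mul_sum, Finset.mul_sum, ← Finset.sum_add_distrib]
        refine Finset.sum_congr rfl fun k _ => ?_
        rw [hz]
        simp only [Pi.add_apply, Pi.smul_apply, smul_eq_mul]
        ring
      rw [this, ha]; ring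
    obtain ⟨n, hn⟩ := norm_z0 ((-m) • y)
    rw [← hz] at hn
    obtain ⟨u, hu⟩ := hD z hzR
    obtain ⟨a, ha⟩ := Rd_bf hzR u
    have h1 : g (g z) = (-1 : ℤ) • z := by rw [hR, hcz, zero_smul, zero_add]
    have h2 := hB (g z) z
    rw [h1, bf_smul', bf_symm z] at h2
    have h3 : bf (g z) z = 0 := by linarith
    rw [hu, bf_add', bf_smul', ha, hn] at h3
    omega
  · -- the odd case
    obtain ⟨u1, hu1⟩ := hD z0 Rd_z0
    obtain ⟨u2, hu2⟩ : ∃ u : V, g (g z0) = z0 + (2 : ℤ) • u := by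
      have h1 : Rd (g z0) := by
        rw [hu1]
        intro i
        obtain ⟨a, ha⟩ := Rd_z0 i
        refine ⟨a + pr i u1, ?_⟩
        have : pr i (z0 + (2 : ℤ) • u1) = pr i z0 + 2 * pr i u1 := by
          unfold pr
          rw [Finset.mul_sum, ← Finset.sum_add_distrib]
          refine Finset.sum_congr rfl fun k _ => ?_
          simp only [Pi.add_apply, Pi.smul_apply, smul_eq_mul]
          ring
        rw [this, ha]; ring
      obtain ⟨u3, hu3⟩ := hD _ h1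
      exact ⟨u1 + u3, by rw [hu3, hu1, smul_add]; abel⟩
    have hv2 : ∃ v2 : V, v = (2 : ℤ) • v2 := by
      refine ⟨z0 + u2 + (-m) • v, ?_⟩
      have h1 := hR z0
      rw [hu2, hm] at h1
      have h2 : (2 * m + 1) • v = (2 : ℤ) • (z0 + u2) := by
        have : (2 * m + 1) • v = (z0 + (2 : ℤ) • u2) - (-1 : ℤ) • z0 := by rw [h1]; abel
        rw [this, neg_one_smul, smul_add, two_smul ℤ z0]; abel
      have h3 : v = (2 * m + 1) • v - (2 * m) • v := by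
        rw [← sub_smul, show (2 * m + 1) - 2 * m = (1 : ℤ) by ring, one_smul]
      rw [smul_add, ← h2, smul_smul, show (2 : ℤ) * -m = -(2 * m) by ring, neg_smul, ← sub_eq_add_neg]
      exact h3
    obtain ⟨w, hw⟩ := hv2
    have hw0 : w ≠ 0 := by rintro rfl; exact hv (by rw [hw, smul_zero])
    set b2 := bf w w with hb2
    have hb2pos : 0 < b2 := bf_pos hw0
    have e1 : b = 4 * b2 := by rw [hbdef, hw, bf_smul, bf_smul', ← hb2]; ring
    have e2 : ∀ x, bf w x = c x * b2 := by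
      intro x
      have h1 := hcb x
      rw [hw, bf_smul'] at h1
      have h2 : b = 4 * b2 := e1
      have h3 : c x * b = c x * (4 * b2) := by rw [h2]
      linarith
    have e3 : ∃ u : V, (2 : ℤ) • w = b2 • u := two_dual fun x => ⟨c x, by rw [bf_symm, e2]; ring⟩
    obtain ⟨u, hu⟩ := e3
    have e4 : 4 * b2 = b2 * (b2 * bf u u) := by
      have h1 : bf ((2 : ℤ) • w) ((2 : ℤ) • w) = bf (b2 • u) (b2 • u) := by rw [hu]
      rw [bf_smul, bf_smul', bf_smul, bf_smul', ← hb2] at h1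
      linarith
    have e5 : b2 * bf u u = 4 := by
      have h1 : b2 * (b2 * bf u u - 4) = 0 := by linarith
      rcases mul_eq_zero.1 h1 with h2 | h2
      · omega
      · linarith
    obtain ⟨a1, ha1⟩ := bf_even u
    obtain ⟨a2, ha2⟩ := bf_even w
    rw [← hb2] at ha2
    have e6 : b2 = 2 := by
      rw [ha1, ha2] at e5
      have h1 : a2 * a1 = 1 := by linarith
      have h2 : 0 < a2 := by omega
      rcases Int.mul_eq_one_iff_eq_one_or_neg_one.1 h1 with ⟨h3, _⟩ | ⟨h3, _⟩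
      · omega
      · omega
    have e7 : Rd w := Rd_of_bf fun x => ⟨c x, by rw [bf_symm, e2, e6]; ring⟩
    rcases cases_Rd e7 with ⟨u3, h3⟩ | ⟨u3, h3⟩
    · obtain ⟨a3, ha3⟩ := bf_even u3
      rw [hb2, h3, bf_smul, bf_smul', ha3] at e6
      omega
    · obtain ⟨a3, ha3⟩ := norm_z0 u3
      rw [← h3, ← hb2, e6] at ha3
      omega

end Cfsg.Agent.H904.E7Form
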