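import Mathlib

/-!
# The lattice part of "no element of order 65 in E₇(2)" (helper904)

`w` an endomorphism of the root lattice of type `E₇` (isometry, trivial on the discriminant group), `w ^ (12 m) = 1`
with `5, 13 ∤ m`; there are no two homomorphisms `φ₅`, `φ₁₃` of exponents `5`, `13` with `φ (w x) = 2 φ x`.
-/

set_option autoImplicit false

namespace Cfsg.Agent.H904.E7Lat

open Polynomial

abbrev V : Type := Fin 7 → ℤ

section Poly

variable {M : Type*} [AddCommGroup M]

theorem phi_aeval {w : Module.End ℤ V} {φ : V →+ M} (h : ∀ x, φ (w x) = (2 : ℤ) • φ x) (f : ℤ[X]) (x : V) :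
    φ (aeval w f x) = f.eval 2 • φ x := by
  induction f using Polynomial.induction_on' generalizing x with
  | add p q hp hq =>
    rw [map_add, LinearMap.add_apply, map_add, hp, hq, eval_add, add_smul]
  | monomial n a =>
    have h1 : ∀ n : ℕ, ∀ x, φ ((w ^ n) x) = ((2 : ℤ) ^ n) • φ x := by
      intro n
      induction n with
      | zero => intro x; simp
      | succ n ih =>
        intro x
        rw [pow_succ, Module.End.mul_apply, ih, h, smul_smul, pow_succ]
    rw [aeval_monomial, eval_monomial, Module.algebraMap_end_eq_smul_id, Module.End.mul_apply, LinearMap.smul_apply,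
      LinearMap.id_apply, map_zsmul, h1, smul_smul]

theorem exists_ker {w : Module.End ℤ V} {φ : V →+ M} (h : ∀ x, φ (w x) = (2 : ℤ) • φ x) {n : ℕ} (hw : w ^ n = 1)
    {q r : ℤ[X]} (hqr : q * r = X ^ n - 1) {l : ℤ} (hl : ∀ x, l • φ x = 0) (hcop : IsCoprime l (r.eval 2))
    (hφ : φ ≠ 0) : ∃ y, y ≠ 0 ∧ aeval w q y = 0 := by
  obtain ⟨x, hx⟩ : ∃ x, φ x ≠ 0 := by
    by_contra hcon
    push Not at hcon
    exact hφ (AddMonoidHom.ext hcon)
  refine ⟨aeval w r x, ?_, ?_⟩
  · intro h0
    have h1 := phi_aeval h r x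
    rw [h0, map_zero] at h1
    obtain ⟨a, b, hab⟩ := hcop
    apply hx
    calc φ x = (1 : ℤ) • φ x := (one_smul _ _).symm
      _ = (a * l + b * r.eval 2) • φ x := by rw [hab]
      _ = 0 := by rw [add_smul, mul_smul, mul_smul, hl, ← h1, smul_zero, smul_zero, add_zero]
  · rw [← Module.End.mul_apply, ← map_mul, hqr, map_sub, map_pow, aeval_X, hw, map_one, sub_self,
      LinearMap.zero_apply]

end Poly

section Cyc

/-- `Φ₁₂` -/
noncomputable def qa : ℤ[X] := X ^ 4 - X ^ 2 + 1

/-- `Φ₄` -/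
noncomputable def qb : ℤ[X] := X ^ 2 + 1

/-- `(X ^ (12 m) - 1) / (X ^ 12 - 1)` -/
noncomputable def S (m : ℕ) : ℤ[X] := ∑ i ∈ Finset.range m, (X ^ 12) ^ i

theorem S_mul (m : ℕ) : S m * (X ^ 12 - 1) = X ^ (12 * m) - 1 := by
  unfold S
  rw [geom_sum_mul, pow_mul]

theorem qa_mul (m : ℕ) : qa * ((X ^ 6 - 1) * (X ^ 2 + 1) * S m) = X ^ (12 * m) - 1 := by
  rw [← S_mul]; unfold qa; ring

theorem qb_mul (m : ℕ) : qb * ((X ^ 6 - 1) * (X ^ 4 - X ^ 2 + 1) * S m) = X ^ (12 * m) - 1 := by
  rw [← S_mul]; unfold qb; ring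

theorem S_eval (m : ℕ) : (S m).eval 2 * 4095 = 4096 ^ m - 1 := by
  have h := congrArg (eval 2) (S_mul m)
  rw [eval_mul, eval_sub, eval_sub, eval_pow, eval_pow, eval_X, eval_one, pow_mul] at h
  norm_num at h
  exact h

/-- `S m` at `2` is `m` modulo `65`. -/
theorem S_modEq (m : ℕ) : (65 : ℤ) ∣ (S m).eval 2 - m := by
  unfold S
  induction m with
  | zero => simp
  | succ m ih =>
    rw [Finset.sum_range_succ, eval_add, eval_pow, eval_pow, eval_X]
    have h1 : (65 : ℤ) ∣ ((2 : ℤ) ^ 12) ^ m - 1 := by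
      have h2 : ((2 : ℤ) ^ 12 - 1) ∣ ((2 : ℤ) ^ 12) ^ m - 1 ^ m := sub_dvd_pow_sub_pow _ _ m
      rw [one_pow] at h2
      exact Dvd.dvd.trans (by norm_num) h2
    have h3 := dvd_add ih h1
    rw [show ∀ a b : ℤ, a + b - ((m + 1 : ℕ) : ℤ) = (a - m) + (b - 1) from fun a b => by push_cast; ring]
    exact h3

theorem cop_qa {m : ℕ} (hm : ¬ 13 ∣ m) : IsCoprime (13 : ℤ) (((X ^ 6 - 1) * (X ^ 2 + 1) * S m : ℤ[X]).eval 2) := by
  have hp : Prime (13 : ℤ) := Int.prime_iff_natAbs_prime.2 (by norm_num)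
  rw [hp.coprime_iff_not_dvd]
  intro h
  rw [eval_mul, eval_mul] at h
  have h1 : (X ^ 6 - 1 : ℤ[X]).eval 2 = 63 := by simp
  have h2 : (X ^ 2 + 1 : ℤ[X]).eval 2 = 5 := by simp
  rw [h1, h2] at h
  have h3 := S_modEq m
  omega

theorem cop_qb {m : ℕ} (hm : ¬ 5 ∣ m) :
    IsCoprime (5 : ℤ) (((X ^ 6 - 1) * (X ^ 4 - X ^ 2 + 1) * S m : ℤ[X]).eval 2) := by
  have hp : Prime (5 : ℤ) := Int.prime_iff_natAbs_prime.2 (by norm_num)
  rw [hp.coprime_iff_not_dvd]
  intro h
  rw [eval_mul, eval_mul] at h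
  have h1 : (X ^ 6 - 1 : ℤ[X]).eval 2 = 63 := by simp
  have h2 : (X ^ 4 - X ^ 2 + 1 : ℤ[X]).eval 2 = 13 := by simp
  rw [h1, h2] at h
  have h3 := S_modEq m
  omega

end Cyc

section Rat

abbrev VQ : Type := Fin 7 → ℚ

/-- the inclusion of the lattice in the rational space -/
def io : V →ₗ[ℤ] VQ where
  toFun x := fun i => (x i : ℚ)
  map_add' x y := by funext i; simp
  map_smul' c x := by funext i; simp

theorem io_injective : Function.Injective io := by
  intro x y h
  funext i
  have h1 := congrFun h i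
  exact Int.cast_injective h1

/-- extension of scalars -/
noncomputable def wQ (w : Module.End ℤ V) : Module.End ℚ VQ :=
  Matrix.toLin' ((LinearMap.toMatrix' w).map (Int.castRingHom ℚ))

theorem wQ_io (w : Module.End ℤ V) (x : V) : wQ w (io x) = io (w x) := by
  unfold wQ
  rw [Matrix.toLin'_apply]
  have h1 : w x = (LinearMap.toMatrix' w).mulVec x := by
    rw [← Matrix.toLin'_apply, Matrix.toLin'_toMatrix']
  rw [h1]
  funext i
  have h2 := RingHom.map_mulVec (Int.castRingHom ℚ) (LinearMap.toMatrix' w) x i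
  exact h2.symm

theorem aeval_io (w : Module.End ℤ V) (f : ℤ[X]) (x : V) :
    aeval (wQ w) (f.map (Int.castRingHom ℚ)) (io x) = io (aeval w f x) := by
  induction f using Polynomial.induction_on' generalizing x with
  | add p q hp hq =>
    rw [Polynomial.map_add, map_add, map_add, LinearMap.add_apply, LinearMap.add_apply, map_add, hp, hq]
  | monomial n a =>
    have h1 : ∀ n : ℕ, ∀ x, ((wQ w) ^ n) (io x) = io ((w ^ n) x) := by
      intro n
      induction n with
      | zero => intro x; simp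
      | succ n ih =>
        intro x
        rw [pow_succ, pow_succ, Module.End.mul_apply, Module.End.mul_apply, wQ_io, ih]
    rw [map_monomial, aeval_monomial, aeval_monomial, Module.algebraMap_end_eq_smul_id,
      Module.algebraMap_end_eq_smul_id, Module.End.mul_apply, Module.End.mul_apply, LinearMap.smul_apply,
      LinearMap.smul_apply, LinearMap.id_apply, LinearMap.id_apply, h1]
    funext i
    simp [io]

theorem ann_dvd {w : Module.End ℤ V} {q p : ℤ[X]} (hq : Irreducible (q.map (Int.castRingHom ℚ))) {y : V} (hy : y ≠ 0)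
    (hqy : aeval w q y = 0) (hpy : aeval w p y = 0) :
    q.map (Int.castRingHom ℚ) ∣ p.map (Int.castRingHom ℚ) := by
  by_contra hcon
  obtain ⟨a, b, hab⟩ := (hq.coprime_iff_not_dvd).2 hcon
  apply hy
  apply io_injective
  rw [map_zero]
  have h1 : aeval (wQ w) (a * q.map (Int.castRingHom ℚ) + b * p.map (Int.castRingHom ℚ)) (io y) = io y := by
    rw [hab, map_one, Module.End.one_apply]
  rw [← h1, map_add, map_mul, map_mul, LinearMap.add_apply, Module.End.mul_apply, Module.End.mul_apply, aeval_io,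
    aeval_io, hqy, hpy, map_zero, map_zero, map_zero, add_zero]

theorem eq_zero_of_dvd {q p : ℤ[X]} (h : q.map (Int.castRingHom ℚ) ∣ p.map (Int.castRingHom ℚ))
    (hd : p.natDegree < q.natDegree) : p = 0 := by
  by_contra hp
  have h1 : p.map (Int.castRingHom ℚ) ≠ 0 := (Polynomial.map_ne_zero_iff Int.cast_injective).2 hp
  have h2 := Polynomial.natDegree_le_of_dvd h h1
  rw [Polynomial.natDegree_map_eq_of_injective Int.cast_injective,
    Polynomial.natDegree_map_eq_of_injective Int.cast_injective] at h2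
  omega

theorem qb_eq : qb = cyclotomic 4 ℤ := by
  unfold qb
  rw [show (4 : ℕ) = 2 ^ (1 + 1) by norm_num, cyclotomic_prime_pow_eq_geom_sum Nat.prime_two]
  simp [Finset.sum_range_succ]
  ring

theorem qa_eq : qa = cyclotomic 12 ℤ := by
  have h := cyclotomic_expand_eq_cyclotomic (p := 2) (n := 6) Nat.prime_two (by norm_num) ℤ
  rw [cyclotomic_six] at h
  rw [show (12 : ℕ) = 6 * 2 by norm_num, ← h]
  unfold qa
  simp [expand_X]
  ring

theorem qa_irr : Irreducible (qa.map (Int.castRingHom ℚ)) := by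
  rw [qa_eq, map_cyclotomic_int]
  exact cyclotomic.irreducible_rat (by norm_num)

theorem qb_irr : Irreducible (qb.map (Int.castRingHom ℚ)) := by
  rw [qb_eq, map_cyclotomic_int]
  exact cyclotomic.irreducible_rat (by norm_num)

theorem qa_deg : qa.natDegree = 4 := by
  rw [qa_eq, natDegree_cyclotomic]; decide

theorem qb_deg : qb.natDegree = 2 := by
  rw [qb_eq, natDegree_cyclotomic]; decide

theorem not_dvd : ¬ qa.map (Int.castRingHom ℚ) ∣ qb.map (Int.castRingHom ℚ) := by
  intro h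
  have h1 := eq_zero_of_dvd h (by rw [qa_deg, qb_deg]; norm_num)
  have h2 := qb_deg
  rw [h1, natDegree_zero] at h2
  norm_num at h2

/-- The six vectors. -/
noncomputable def six (w : Module.End ℤ V) (y z : V) : Fin 6 → V :=
  ![y, w y, (w ^ 2) y, (w ^ 3) y, z, w z]

theorem six_indep {w : Module.End ℤ V} {y z : V} (hy : y ≠ 0) (hz : z ≠ 0) (hqy : aeval w qa y = 0)
    (hqz : aeval w qb z = 0) : LinearIndependent ℤ (six w y z) := by
  rw [Fintype.linearIndependent_iff]
  intro g hg
  let P : ℤ[X] := C (g 0) + C (g 1) * X + C (g 2) * X ^ 2 + C (g 3) * X ^ 3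
  let Q : ℤ[X] := C (g 4) + C (g 5) * X
  have hP : aeval w P y = g 0 • y + g 1 • w y + g 2 • (w ^ 2) y + g 3 • (w ^ 3) y := by
    simp only [P, map_add, map_mul, map_pow, aeval_C, aeval_X, Module.algebraMap_end_eq_smul_id,
      LinearMap.add_apply, Module.End.mul_apply, LinearMap.smul_apply, LinearMap.id_apply]
  have hQ : aeval w Q z = g 4 • z + g 5 • w z := by
    simp only [Q, map_add, map_mul, aeval_C, aeval_X, Module.algebraMap_end_eq_smul_id,
      LinearMap.add_apply, Module.End.mul_apply, LinearMap.smul_apply, LinearMap.id_apply]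
  have hsum : aeval w P y + aeval w Q z = 0 := by
    rw [hP, hQ, ← hg, Fin.sum_univ_six]
    simp only [six]
    simp
    abel
  have hPd : P.natDegree ≤ 3 := by
    simp only [P]
    compute_degree
  have hQd : Q.natDegree ≤ 1 := by
    simp only [Q]
    compute_degree
  have h1 : aeval w (qb * P) y = 0 := by
    have h2 := congrArg (aeval w qb) hsum
    rw [map_add, map_zero, ← Module.End.mul_apply, ← Module.End.mul_apply, ← map_mul, ← map_mul, mul_comm qb Q,
      map_mul _ Q, Module.End.mul_apply, hqz, map_zero, add_zero] at h2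
    exact h2
  have hP0 : P = 0 := by
    have h3 := ann_dvd qa_irr hy hqy h1
    rw [Polynomial.map_mul] at h3
    rcases (qa_irr.prime.dvd_or_dvd h3) with h4 | h4
    · exact absurd h4 not_dvd
    · exact eq_zero_of_dvd h4 (by rw [qa_deg]; omega)
  have hQ0 : Q = 0 := by
    rw [hP0, map_zero, LinearMap.zero_apply, zero_add] at hsum
    exact eq_zero_of_dvd (ann_dvd qb_irr hz hqz hsum) (by rw [qb_deg]; omega)
  have hc : ∀ n, P.coeff n = 0 := fun n => by rw [hP0, coeff_zero]
  have hd : ∀ n, Q.coeff n = 0 := fun n => by rw [hQ0, coeff_zero]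
  have c0 := hc 0
  have c1 := hc 1
  have c2 := hc 2
  have c3 := hc 3
  have d0 := hd 0
  have d1 := hd 1
  simp only [P, Q, coeff_add, coeff_C_mul, coeff_X_pow, coeff_X, coeff_C] at c0 c1 c2 c3 d0 d1
  norm_num at c0 c1 c2 c3 d0 d1
  intro i
  fin_cases i
  · exact c0
  · exact c1
  · exact c2
  · exact c3
  · exact d0
  · exact d1

end Rat

section Rank

theorem mul_eq : qa * qb = X ^ 6 + 1 := by unfold qa qb; ring

theorem six_mem {w : Module.End ℤ V} {y z : V} (hqy : aeval w qa y = 0)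
    (hqz : aeval w qb z = 0) (i : Fin 6) : six w y z i ∈ LinearMap.ker (w ^ 6 + 1) := by
  have h1 : w ^ 6 + 1 = aeval w (qa * qb) := by
    rw [mul_eq, map_add, map_pow, aeval_X, map_one]
  rw [LinearMap.mem_ker, h1]
  have hy : ∀ k : ℕ, aeval w (qa * qb) ((w ^ k) y) = 0 := by
    intro k
    have h2 : (w ^ k) = aeval w (X ^ k : ℤ[X]) := by rw [map_pow, aeval_X]
    rw [h2, ← Module.End.mul_apply, ← map_mul, show qa * qb * X ^ k = X ^ k * qb * qa by ring, map_mul,
      Module.End.mul_apply, hqy, map_zero]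
  have hz : ∀ k : ℕ, aeval w (qa * qb) ((w ^ k) z) = 0 := by
    intro k
    have h2 : (w ^ k) = aeval w (X ^ k : ℤ[X]) := by rw [map_pow, aeval_X]
    rw [h2, ← Module.End.mul_apply, ← map_mul, show qa * qb * X ^ k = X ^ k * qa * qb by ring, map_mul,
      Module.End.mul_apply, hqz, map_zero]
  have hy0 := hy 0
  have hy1 := hy 1
  have hz0 := hz 0
  have hz1 := hz 1
  rw [pow_zero, Module.End.one_apply] at hy0 hz0
  rw [pow_one] at hy1 hz1
  fin_cases i
  · exact hy0
  · exact hy1
  · exact hy 2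
  · exact hy 3
  · exact hz0
  · exact hz1

theorem finrank_ker_ge {w : Module.End ℤ V} {y z : V} (hy : y ≠ 0) (hz : z ≠ 0) (hqy : aeval w qa y = 0)
    (hqz : aeval w qb z = 0) : 6 ≤ Module.finrank ℤ (LinearMap.ker (w ^ 6 + 1)) := by
  have h1 := six_indep hy hz hqy hqz
  let f : Fin 6 → LinearMap.ker (w ^ 6 + 1) := fun i => ⟨six w y z i, six_mem hqy hqz i⟩
  have h2 : LinearIndependent ℤ f := by
    apply LinearIndependent.of_comp (LinearMap.ker (w ^ 6 + 1)).subtype
    exact h1
  have h3 := h2.fintype_card_le_finrank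
  rwa [Fintype.card_fin] at h3

theorem add_one_ne_zero (w : Module.End ℤ V) : w ^ 6 + 1 ≠ 0 := by
  intro h
  have h1 : w ^ 6 = -1 := eq_neg_of_add_eq_zero_left h
  have h2 := congrArg LinearMap.det h1
  have h3 : LinearMap.det (-1 : Module.End ℤ V) = -1 := by
    rw [show (-1 : Module.End ℤ V) = (-1 : ℤ) • LinearMap.id by ext; simp, LinearMap.det_smul]
    simp
  rw [map_pow, h3, show (6 : ℕ) = 3 * 2 by norm_num, pow_mul] at h2
  have h4 := sq_nonneg (LinearMap.det w ^ 3)
  omega

/-- `w ^ 6 + 1` is `x ↦ c(x) v`, `c` onto `ℤ`. -/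
theorem exists_c {w : Module.End ℤ V} {y z : V} (hy : y ≠ 0) (hz : z ≠ 0) (hqy : aeval w qa y = 0)
    (hqz : aeval w qb z = 0) : ∃ (v : V) (c : V →ₗ[ℤ] ℤ), v ≠ 0 ∧ (∃ y, c y = 1) ∧
      ∀ x, (w ^ 6) x + x = c x • v := by
  set N : Module.End ℤ V := w ^ 6 + 1 with hN
  have h1 := finrank_ker_ge hy hz hqy hqz
  rw [← hN] at h1
  have h2 := (LinearMap.ker N).finrank_quotient_add_finrank
  rw [LinearEquiv.finrank_eq N.quotKerEquivRange] at h2
  have h3 : Module.finrank ℤ V = 7 := by simp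
  rw [h3] at h2
  have h4 : Module.finrank ℤ (LinearMap.range N) ≠ 0 := by
    intro h0
    apply add_one_ne_zero w
    rw [← hN]
    have h5 := Submodule.finrank_eq_zero.1 h0
    exact LinearMap.range_eq_bot.1 h5
  have h5 : Module.finrank ℤ (LinearMap.range N) = 1 := by omega
  let b := Module.finBasisOfFinrankEq ℤ (LinearMap.range N) h5
  let c : V →ₗ[ℤ] ℤ := (b.coord 0) ∘ₗ N.rangeRestrict
  refine ⟨(b 0 : V), c, ?_, ?_, ?_⟩
  · intro h0
    exact b.ne_zero 0 (Subtype.ext h0)
  · obtain ⟨y, hy⟩ := (b 0).2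
    refine ⟨y, ?_⟩
    show b.coord 0 (N.rangeRestrict y) = 1
    have : N.rangeRestrict y = b 0 := Subtype.ext hy
    rw [this, Module.Basis.coord_apply, Module.Basis.repr_self, Finsupp.single_eq_same]
  · intro x
    have h6 := b.sum_repr (N.rangeRestrict x)
    rw [Fin.sum_univ_one] at h6
    exact (congrArg Subtype.val h6).symm

end Rank

end Cfsg.Agent.H904.E7Lat
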