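import Cfsg.Agent.H904.TorPQ
import Cfsg.Agent.H904.E7Form
import Cfsg.Agent.BpExc.TorChev
import Cfsg.Agent.S1093
import Cfsg.Agent.S1054

/-!
# `E₇(2)` has no element of order 65 (helper904)
-/

set_option autoImplicit false
set_option linter.unusedSectionVars false

namespace Cfsg.Agent.H904.E7Main

open CoxeterSystem Cfsg.Agent.ChevalleyStructure.CoxeterGeom Cfsg.Agent.Tits.Roots Cfsg.Agent.Tits.Core
  Cfsg.Agent.Nodes.Reps Cfsg.Agent.Nodes.BNOf Cfsg.Agent.Nodes.OppDec Cfsg.Agent.KFacts.RgdAut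
  Cfsg.Agent.KFacts.RgdDiag Cfsg.Agent.Nodes.Bruhat
open Cfsg.Lie Cfsg.Agent.ChevalleyStructure Cfsg.Agent.ChevalleyStructure.Elts
  Cfsg.Agent.ChevalleyStructure.CoxeterGeomTypes
  Cfsg.Agent.Nodes.RGDChev Cfsg.Agent.KFacts.RgdField Cfsg.Agent.KFacts.RgdChevCoord
  Cfsg.Agent.CpAut.RgdSub Cfsg.Agent.CpAut.RgdFix Cfsg.Agent.ChevStructure.FieldMap Cfsg.Agent.BpExc.TorAll
open Cfsg.Agent.H904.E7Lat Cfsg.Agent.H904.E7Form Cfsg.Agent.H904.TorPQ

universe u

theorem cartan_eq : ∀ i j : Fin 7, cartanOf chevE7 7 i j = E i j := by decide +kernel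

theorem pairing_eq (i : Fin 7) (x : V) : pairing (cartanOf chevE7 7) i x = pr i x := by
  unfold pairing pr
  exact Finset.sum_congr rfl fun k _ => by rw [cartan_eq]

abbrev hp7 : IsType chevE7 7 CoxeterMatrix.E₇ := Cfsg.Agent.BpExc.RowsUntw.e7T

section Latt

variable {W : Type*} [Group W] (cs : CoxeterSystem CoxeterMatrix.E₇ W)

theorem pr_single (i j : Fin 7) (c : ℤ) : pr i (Pi.single j c) = E i j * c := by
  unfold pr
  rw [Finset.sum_eq_single j]
  · rw [Pi.single_eq_same]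
  · intro k _ hk
    rw [Pi.single_eq_of_ne hk, mul_zero]
  · intro h; exact absurd (Finset.mem_univ j) h

theorem bf_single (x : V) (i : Fin 7) (c : ℤ) : bf (Pi.single i c) x = c * pr i x := by
  unfold bf
  rw [Finset.sum_eq_single i]
  · rw [Pi.single_eq_same]
  · intro k _ hk
    rw [Pi.single_eq_of_ne hk, zero_mul]
  · intro h; exact absurd (Finset.mem_univ i) h

theorem bf_refl (i : Fin 7) (x y : V) :
    bf (refl (cartanOf chevE7 7) i x) (refl (cartanOf chevE7 7) i y) = bf x y := by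
  have h1 : ∀ x : V, refl (cartanOf chevE7 7) i x = x + Pi.single i (-pr i x) := by
    intro x
    rw [refl_apply, pairing_eq, Pi.single_neg, sub_eq_add_neg]
  have hE : E i i = 2 := by rw [← cartan_eq]; exact (hp7.isCartan).diag i
  rw [h1, h1, bf_add, bf_add', bf_add', bf_single, bf_single, pr_single, hE, bf_symm x (Pi.single _ _), bf_single]
  ring

theorem bf_rep (w : W) (x y : V) : bf (rep cs hp7.isCartan w x) (rep cs hp7.isCartan w y) = bf x y := by
  obtain ⟨ω, rfl⟩ := cs.wordProd_surjective w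
  induction ω with
  | nil => rw [wordProd_nil, map_one, Module.End.one_apply, Module.End.one_apply]
  | cons i ω ih => rw [wordProd_cons, rep_mul_apply, rep_mul_apply, rep_simple, bf_refl, ih]

theorem pr_add (i : Fin 7) (x y : V) : pr i (x + y) = pr i x + pr i y := by
  unfold pr
  rw [← Finset.sum_add_distrib]
  exact Finset.sum_congr rfl fun k _ => by rw [Pi.add_apply]; ring

theorem pr_smul (i : Fin 7) (x : V) (c : ℤ) : pr i (c • x) = c * pr i x := by
  unfold pr
  rw [Finset.mul_sum]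
  exact Finset.sum_congr rfl fun k _ => by rw [Pi.smul_apply, smul_eq_mul]; ring

theorem Rd_add {z : V} (hz : Rd z) (u : V) : Rd (z + (2 : ℤ) • u) := by
  intro i
  obtain ⟨m, hm⟩ := hz i
  exact ⟨m + pr i u, by rw [pr_add, pr_smul, hm]; ring⟩

theorem disc_rep (w : W) (z : V) (hz : Rd z) : ∃ u : V, rep cs hp7.isCartan w z = z + (2 : ℤ) • u := by
  obtain ⟨ω, rfl⟩ := cs.wordProd_surjective w
  induction ω with
  | nil => exact ⟨0, by rw [wordProd_nil, map_one, Module.End.one_apply, smul_zero, add_zero]⟩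
  | cons i ω ih =>
    obtain ⟨u, hu⟩ := ih
    obtain ⟨m, hm⟩ := Rd_add hz u i
    refine ⟨u + Pi.single i (-m), ?_⟩
    rw [wordProd_cons, rep_mul_apply, rep_simple, hu, refl_apply, pairing_eq, hm, smul_add, ← Pi.single_smul,
      smul_eq_mul, sub_eq_add_neg, ← Pi.single_neg, add_assoc]
    congr 3
    ring

include cs in
theorem card_W : Nat.card W = 2903040 := by
  have h1 : Nat.card CoxeterMatrix.E₇.Group = 2903040 :=
    Cfsg.Agent.S1093.result (⟨7, CoxeterMatrix.E₇⟩, 2903040) (by simp)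
  rw [← h1]
  exact Nat.card_congr cs.mulEquiv.toEquiv

/-- **The lattice contradiction.** -/
theorem latt_false {Q : Type*} [AddCommGroup Q] {w : W} {φ : V →+ Q}
    (h : ∀ x, φ (rep cs hp7.isCartan w x) = (2 : ℤ) • φ x) (h65 : ∀ x, (65 : ℤ) • φ x = 0)
    (h5 : ∃ x, (5 : ℤ) • φ x ≠ 0) (h13 : ∃ x, (13 : ℤ) • φ x ≠ 0) : False := by
  have hfin := finite_W hp7 cs
  set r := rep cs hp7.isCartan (w ^ 25) with hr
  have hpow : ∀ n : ℕ, ∀ x, φ (rep cs hp7.isCartan (w ^ n) x) = ((2 : ℤ) ^ n) • φ x := by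
    intro n
    induction n with
    | zero => intro x; simp
    | succ n ih =>
      intro x
      rw [pow_succ, rep_mul_apply, ih, h, smul_smul, pow_succ]
  have h2 : ∀ x, φ (r x) = (2 : ℤ) • φ x := by
    intro x
    rw [hr, hpow, show ((2 : ℤ) ^ 25) = 2 + 516222 * 65 by norm_num, add_smul, mul_smul, h65, smul_zero, add_zero]
  have hr1 : r ^ (12 * 48384) = 1 := by
    rw [hr, ← map_pow, ← pow_mul]
    have h3 : w ^ (25 * (12 * 48384)) = 1 := by
      rw [show 25 * (12 * 48384) = 2903040 * 5 by norm_num, pow_mul, ← card_W cs, pow_card_eq_one', one_pow]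
    rw [h3, map_one]
  let ψ (c : ℤ) : V →+ Q := (zsmulAddGroupHom c).comp φ
  have hψ : ∀ c x, ψ c x = c • φ x := fun c x => rfl
  have hψ2 : ∀ c x, ψ c (r x) = (2 : ℤ) • ψ c x := by
    intro c x
    rw [hψ, hψ, h2, smul_comm]
  obtain ⟨y, hy, hqy⟩ := exists_ker (φ := ψ 5) (hψ2 5) hr1 (qa_mul 48384) (l := 13) (fun x => by
    rw [hψ, smul_smul, show (13 : ℤ) * 5 = 65 by norm_num, h65]) (cop_qa (by norm_num)) (by
    intro h0
    obtain ⟨x, hx⟩ := h5
    exact hx (by rw [← hψ, h0]; rfl))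
  obtain ⟨z, hz, hqz⟩ := exists_ker (φ := ψ 13) (hψ2 13) hr1 (qb_mul 48384) (l := 5) (fun x => by
    rw [hψ, smul_smul, show (5 : ℤ) * 13 = 65 by norm_num, h65]) (cop_qb (by norm_num)) (by
    intro h0
    obtain ⟨x, hx⟩ := h13
    exact hx (by rw [← hψ, h0]; rfl))
  obtain ⟨v, c, hv, ⟨y1, hy1⟩, hc⟩ := exists_c hy hz hqy hqz
  have hg : r ^ 3 = rep cs hp7.isCartan ((w ^ 25) ^ 3) := by rw [hr, ← map_pow]
  refine contra (g := r ^ 3) (fun x y => by rw [hg]; exact bf_rep cs _ x y)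
    (fun z hz => by rw [hg]; exact disc_rep cs _ z hz) hv hy1 (fun x => ?_)
  rw [← hc x, ← Module.End.mul_apply, ← pow_add]

end Latt

section Grp

variable {K : Type u} [Field K] [Finite K] [CharP K 2]

theorem center_eq_bot (K : Type u) [Field K] : Subgroup.center ↥(chevE7.group K) = ⊥ := by
  obtain ⟨h1, h2⟩ := Cfsg.Agent.S1054.result (F := K) chevE7 (by simp)
  refine Cfsg.Agent.KFacts.RgdLieCharP.center_eq_bot ?_
  by_contra hcon
  push Not at hcon
  exact h2 ⟨⟨hcon⟩⟩

variable {W : Type*} [Group W] (cs : CoxeterSystem CoxeterMatrix.E₇ W)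

include cs in
theorem eq_one_of_ch {t : ↥(chevE7.group K)} (ht : t ∈ TT chevE7 K)
    (h : ∀ a, IsRoot cs hp7.isCartan a → ch hp7 a t = 1) : t = 1 := by
  have C := coords (K := K) hp7 cs 2
  have h1 : (⊤ : Subgroup ↥(chevE7.group K)) ≤ Subgroup.centralizer {t} := by
    rw [← Cfsg.Agent.BpExc.TorChev.GG_top (K := K) hp7 cs]
    refine sup_le ?_ ?_
    · intro s hs
      rw [Subgroup.mem_centralizer_singleton_iff]
      exact (Cfsg.Agent.BpExc.TorChev.TT_comm hp7 t ht s hs).symm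
    · refine RGD.Sup_le fun a ha => ?_
      intro y hy
      obtain ⟨s, rfl⟩ := ((C.coord a ha).mem y).1 hy
      rw [Subgroup.mem_centralizer_singleton_iff]
      have h2 := (C.coord a ha).act t ht s
      rw [h a ha, one_mul, mul_inv_eq_iff_eq_mul] at h2
      exact h2.symm
  have h2 : t ∈ Subgroup.center ↥(chevE7.group K) := by
    rw [Subgroup.mem_center_iff]
    intro g
    exact Subgroup.mem_centralizer_singleton_iff.1 (h1 (Subgroup.mem_top g))
  rwa [center_eq_bot, Subgroup.mem_bot] at h2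

include cs in
theorem false_of {t s : ↥(chevE7.group K)} (ht : t ∈ TT chevE7 K) (ho : orderOf t = 65)
    {τ : K ≃+* K} (hτ : ∀ a, τ a = a ^ 2) (hs : s * t * s⁻¹ = fG chevE7 τ t) : False := by
  have hfin := finite_W hp7 cs
  have R := rgd (K := K) hp7 cs 2
  have C := coords (K := K) hp7 cs 2
  have hG : GG cs hp7.isCartan (TT chevE7 K) (XX chevE7 7 K) = ⊤ := Cfsg.Agent.BpExc.TorChev.GG_top (K := K) hp7 cs
  have D := diag_fG hp7 2 cs τ 1
  rw [pow_one] at D
  have ht' : fG chevE7 τ t ∈ TT chevE7 K := (D.tor t).2 ht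
  obtain ⟨w, k, hk, hkt⟩ := conj_T_rp R hG ht ht' hs
  obtain ⟨φ, hφ0, hφ, hφt⟩ := Cfsg.Agent.BpExc.TorChev.chAdd hp7 cs 2 t ht
  have hch : ∀ a, IsRoot cs hp7.isCartan a → ch hp7 a (fG chevE7 τ t) = ch hp7 a t ^ 2 := by
    intro a ha
    obtain ⟨r, hr, rfl⟩ := (isRoot_iff hp7 cs a).1 ha
    apply ch_eq hp7 hr ht'
    have h1 := (C.coord _ ha).act t ht 1
    have h2 := congrArg (fG chevE7 τ) h1
    rw [map_mul, map_mul, map_inv, fG_xc hp7 τ hr, fG_xc hp7 τ hr, map_one, mul_one, hτ] at h2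
    exact h2
  have h1 : ∀ a, IsRoot cs hp7.isCartan a → φ (rep cs hp7.isCartan w a) ^ 2 = φ a := by
    intro a ha
    have h2 := C.chi_rp R.nsys hk ha ht
    rw [hkt, hch _ (ha.act w), hφt _ (ha.act w), hφt a ha] at h2
    exact h2
  have h2 : ∀ a, IsRoot cs hp7.isCartan a → φ (rep cs hp7.isCartan w⁻¹ a) = φ a ^ 2 := by
    intro a ha
    have h3 := h1 _ (ha.act w⁻¹)
    rw [← rep_mul_apply, mul_inv_cancel, map_one, Module.End.one_apply] at h3
    exact h3.symm
  have hne : ∀ x, φ x ≠ 0 := by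
    intro x h0
    have h3 := hφ x (-x)
    rw [add_neg_cancel, hφ0, h0, zero_mul] at h3
    exact one_ne_zero h3
  let Φ : V →+ Additive Kˣ :=
    { toFun := fun x => Additive.ofMul (Units.mk0 (φ x) (hne x))
      map_zero' := by
        rw [← ofMul_one]
        congr 1
        exact Units.ext hφ0
      map_add' := fun x y => by
        rw [← ofMul_mul]
        congr 1
        exact Units.ext (hφ x y) }
  have hΦ : ∀ x, ((Additive.toMul (Φ x) : Kˣ) : K) = φ x := fun x => rfl
  have hpow : ∀ (n : ℕ) (x : V), ((Additive.toMul ((n : ℤ) • Φ x) : Kˣ) : K) = φ x ^ n := by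
    intro n x
    rw [natCast_zsmul, toMul_nsmul, Units.val_pow_eq_pow_val, hΦ]
  have hroot : ∀ i : Fin 7, IsRoot cs hp7.isCartan (sr i) := fun i => isRoot_sr cs hp7.isCartan i
  have hchp : ∀ (n : ℕ) a, IsRoot cs hp7.isCartan a → ch hp7 a (t ^ n) = φ a ^ n := by
    intro n a ha
    have Ca := C.coord a ha
    induction n with
    | zero =>
      rw [pow_zero, pow_zero]
      have h3 := Ca.chi_mul (one_mem _) (one_mem _)
      rw [mul_one] at h3
      exact (mul_eq_left₀ (Ca.chi_ne_zero (one_mem _))).1 h3.symm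
    | succ n ih => rw [pow_succ, Ca.chi_mul (pow_mem ht n) ht, ih, hφt a ha, pow_succ]
  have hext : ∀ F1 F2 : V →+ Additive Kˣ, (∀ i : Fin 7, F1 (sr i) = F2 (sr i)) → F1 = F2 := by
    intro F1 F2 h3
    have h4 : F1.toIntLinearMap = F2.toIntLinearMap := by
      apply (Pi.basisFun ℤ (Fin 7)).ext
      intro i
      rw [Pi.basisFun_apply]
      exact h3 i
    exact AddMonoidHom.ext fun x => LinearMap.congr_fun h4 x
  have hinj : Function.Injective (fun q : Additive Kˣ => ((Additive.toMul q : Kˣ) : K)) := by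
    intro a b hab
    exact Additive.toMul.injective (Units.ext hab)
  refine latt_false (cs := cs) (w := w⁻¹) (φ := Φ) ?_ ?_ ?_ ?_
  · intro x
    have h3 := hext (Φ.comp (rep cs hp7.isCartan w⁻¹).toAddMonoidHom) ((zsmulAddGroupHom 2).comp Φ) (by
      intro i
      apply hinj
      show ((Additive.toMul (Φ (rep cs hp7.isCartan w⁻¹ (sr i))) : Kˣ) : K) =
        ((Additive.toMul ((2 : ℤ) • Φ (sr i)) : Kˣ) : K)
      rw [hΦ, h2 _ (hroot i)]
      exact (hpow 2 _).symm)
    exact DFunLike.congr_fun h3 x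
  · intro x
    have h3 := hext ((zsmulAddGroupHom 65).comp Φ) 0 (by
      intro i
      apply hinj
      show ((Additive.toMul ((65 : ℤ) • Φ (sr i)) : Kˣ) : K) = ((1 : Kˣ) : K)
      refine (hpow 65 _).trans ?_
      rw [← hchp 65 _ (hroot i), ← ho, pow_orderOf_eq_one]
      have h3 := hchp 0 _ (hroot i)
      rw [pow_zero, pow_zero] at h3
      rw [h3]
      rfl)
    exact DFunLike.congr_fun h3 x
  · by_contra hcon
    push Not at hcon
    have h3 : t ^ 5 = 1 := eq_one_of_ch cs (pow_mem ht 5) (fun a ha => by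
      rw [hchp 5 a ha, ← hpow 5]
      have h4 := hcon a
      exact congrArg (fun q : Additive Kˣ => ((Additive.toMul q : Kˣ) : K)) h4)
    have h4 := orderOf_dvd_of_pow_eq_one h3
    rw [ho] at h4
    norm_num at h4
  · by_contra hcon
    push Not at hcon
    have h3 : t ^ 13 = 1 := eq_one_of_ch cs (pow_mem ht 13) (fun a ha => by
      rw [hchp 13 a ha, ← hpow 13]
      have h4 := hcon a
      exact congrArg (fun q : Additive Kˣ => ((Additive.toMul q : Kˣ) : K)) h4)
    have h4 := orderOf_dvd_of_pow_eq_one h3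
    rw [ho] at h4
    norm_num at h4

end Grp

/-- **`E₇(2)` has no element of order 65.** -/
theorem orderOf_ne (x0 : ↥(chevE7.group (ZMod 2))) : orderOf x0 ≠ 65 := by
  intro ho
  let k := AlgebraicClosure (ZMod 2)
  have hch : CharP k 2 := inferInstance
  have hk : HAlg 2 k := hAlg_of_isAlgebraic 2 k
  let f : ZMod 2 →+* k := algebraMap (ZMod 2) k
  let x : ↥(chevE7.group k) := Cfsg.Agent.GpExc.Field.emb hp7.inList f x0
  have hx65 : x ^ 65 = 1 := by rw [← map_pow, ← ho, pow_orderOf_eq_one, map_one]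
  have hox : orderOf x = 65 := by
    rw [← ho]
    exact orderOf_injective _ (Cfsg.Agent.GpExc.Field.emb_injective hp7.inList f) x0
  obtain ⟨N, hN, x', hxx', g, hg⟩ := exists_level_toral hp7 2 hk x.2 (a := 5) (b := 13) (by norm_num) (by norm_num)
    (by norm_num) (by norm_num) (by norm_num) (by
      rw [show 5 * 13 = 65 by norm_num, ← Subgroup.coe_pow, hx65, Subgroup.coe_one]) (by
      have h1 : Nat.card CoxeterMatrix.E₇.Group = 2903040 :=
        Cfsg.Agent.S1093.result (⟨7, CoxeterMatrix.E₇⟩, 2903040) (by simp)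
      rw [h1]
      norm_num)
  have hfinN : Finite ↥(EE 2 N : Subfield k) := finite_EE 2 hN
  have : CharP ↥(EE 2 N : Subfield k) 2 := charP_fixF 2 _
  have hox' : orderOf x' = 65 := by
    rw [← hox, ← Subgroup.orderOf_coe x', ← Subgroup.orderOf_coe x, ← hxx']
    exact (orderOf_injective _ (glm_injective (D := chevE7) (EE 2 N : Subfield k)) _).symm
  have hfx : fG chevE7 (frE 2 N 1) x' = x' := by
    apply Subtype.ext
    apply Units.ext
    ext a b
    rw [fG_coe]
    show (((x' : GL chevE7.Idx ↥(EE 2 N : Subfield k)) : Matrix chevE7.Idx chevE7.Idx ↥(EE 2 N : Subfield k)) a b : k)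
      ^ 2 ^ 1 = (((x' : GL chevE7.Idx ↥(EE 2 N : Subfield k)) : Matrix chevE7.Idx chevE7.Idx
      ↥(EE 2 N : Subfield k)) a b : k)
    have h1 := congrFun (congrFun (congrArg (fun x : GL chevE7.Idx k => (x : Matrix chevE7.Idx chevE7.Idx k)) hxx') a) b
    have h2 : (((x' : GL chevE7.Idx ↥(EE 2 N : Subfield k)) : Matrix chevE7.Idx chevE7.Idx
      ↥(EE 2 N : Subfield k)) a b : k) = f (((x0 : GL chevE7.Idx (ZMod 2)) : Matrix chevE7.Idx chevE7.Idx (ZMod 2)) a b) :=
      h1
    rw [h2, ← map_pow]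
    congr 1
    have h3 : ∀ c : ZMod 2, c ^ 2 ^ 1 = c := by decide
    exact h3 _
  refine false_of (K := ↥(EE 2 N : Subfield k)) CoxeterMatrix.E₇.toCoxeterSystem (t := g * x' * g⁻¹)
    (s := fG chevE7 (frE 2 N 1) g * g⁻¹) hg ?_ (τ := frE 2 N 1) (fun a => Subtype.ext rfl) ?_
  · rw [← hox']
    exact orderOf_injective (MulAut.conj g).toMonoidHom (MulAut.conj g).injective x'
  · rw [map_mul, map_mul, map_inv, hfx]
    group

end Cfsg.Agent.H904.E7Main
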