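import Mathlib
import Cfsg.Agent.Lib.Zsigmondy

/-!
# Arithmetic for the exclusion of product action inside the known 2-transitive groups
-/

set_option autoImplicit false

namespace Cfsg.Agent.H904.HamArith

open Finset Nat

/-- `(n+1)^d (n+1-d) ≤ n^d (n+1)`. -/
theorem bern (n d : ℕ) (hd : d ≤ n + 1) : (n + 1) ^ d * (n + 1 - d) ≤ n ^ d * (n + 1) := by
  induction d with
  | zero => simp
  | succ d ih =>
    have h1 := ih (by omega)
    obtain ⟨c, hc⟩ : ∃ c, n = d + c := ⟨n - d, by omega⟩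
    have e1 : n + 1 - (d + 1) = c := by omega
    have e2 : n + 1 - d = c + 1 := by omega
    rw [e1]
    rw [e2] at h1
    calc (n + 1) ^ (d + 1) * c = (n + 1) ^ d * ((n + 1) * c) := by ring
      _ ≤ (n + 1) ^ d * (n * (c + 1)) := by
          apply Nat.mul_le_mul_left
          rw [hc]; nlinarith
      _ = n * ((n + 1) ^ d * (c + 1)) := by ring
      _ ≤ n * (n ^ d * (n + 1)) := Nat.mul_le_mul_left _ h1
      _ = n ^ (d + 1) * (n + 1) := by ring

theorem pow_succ_le (n d : ℕ) (hd : 2 * d ≤ n + 1) : (n + 1) ^ d ≤ 2 * n ^ d := by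
  have h := bern n d (by omega)
  have h2 : (n + 1) ^ d * (n + 1) ≤ 2 * n ^ d * (n + 1) := by
    calc (n + 1) ^ d * (n + 1) ≤ (n + 1) ^ d * (2 * (n + 1 - d)) := Nat.mul_le_mul_left _ (by omega)
      _ = 2 * ((n + 1) ^ d * (n + 1 - d)) := by ring
      _ ≤ 2 * (n ^ d * (n + 1)) := Nat.mul_le_mul_left _ h
      _ = 2 * n ^ d * (n + 1) := by ring
  exact Nat.le_of_mul_le_mul_right h2 (by omega)

theorem factorial_base (d : ℕ) (hd : 3 ≤ d) : 2 * (2 * d + 1) ^ d ≤ (2 * d)! := by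
  induction d, hd using Nat.le_induction with
  | base => decide
  | succ d hd ih =>
    have h1 : (2 * d + 2 + 1) ^ (d + 1) ≤ 2 * (2 * d + 2) ^ (d + 1) := pow_succ_le (2 * d + 2) (d + 1) (by omega)
    have h2 : (2 * d + 1 + 1) ^ (d + 1) ≤ 2 * (2 * d + 1) ^ (d + 1) := pow_succ_le (2 * d + 1) (d + 1) (by omega)
    have e : (2 * (d + 1))! = (2 * d + 2) * ((2 * d + 1) * (2 * d)!) := by
      rw [show 2 * (d + 1) = 2 * d + 1 + 1 by ring, Nat.factorial_succ, Nat.factorial_succ]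
    rw [e]
    calc 2 * (2 * (d + 1) + 1) ^ (d + 1) = 2 * (2 * d + 2 + 1) ^ (d + 1) := by ring_nf
      _ ≤ 2 * (2 * (2 * d + 2) ^ (d + 1)) := Nat.mul_le_mul_left _ h1
      _ ≤ 2 * (2 * (2 * (2 * d + 1) ^ (d + 1))) := by
          apply Nat.mul_le_mul_left; apply Nat.mul_le_mul_left; exact h2
      _ = 4 * ((2 * d + 1) * (2 * (2 * d + 1) ^ d)) := by ring
      _ ≤ (2 * d + 2) * ((2 * d + 1) * (2 * d)!) := by
          apply Nat.mul_le_mul (by omega)
          exact Nat.mul_le_mul_left _ ih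

theorem factorial_ge (d s : ℕ) (hd : 3 ≤ d) (hs : 2 * d ≤ s) : 2 * (s + 1) ^ d ≤ s ! := by
  induction s, hs using Nat.le_induction with
  | base => exact factorial_base d hd
  | succ s hs ih =>
    have h1 : (s + 1 + 1) ^ d ≤ 2 * (s + 1) ^ d := pow_succ_le (s + 1) d (by omega)
    rw [Nat.factorial_succ]
    calc 2 * (s + 1 + 1) ^ d ≤ 2 * (2 * (s + 1) ^ d) := Nat.mul_le_mul_left _ h1
      _ ≤ (s + 1) * (2 * (s + 1) ^ d) := Nat.mul_le_mul_right _ (by omega)
      _ ≤ (s + 1) * s ! := Nat.mul_le_mul_left _ ih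

/-- For a prime `r` whose part in `N` is at most its part in `m ^ k`. -/
theorem eq_prime {m k N r : ℕ} (hm : 5 ≤ m) (hk : 1 ≤ k) (hN : N ≠ 0) (hr : r.Prime) (hr2 : r ≠ 2)
    (hrm : r ∣ m) (hdvd : (m ! / 2) ^ k ∣ N) (hv : N.factorization r ≤ k * m.factorization r) : m = r := by
  have hm0 : m ≠ 0 := by omega
  have h2 : 2 ∣ m ! := (Nat.Prime.dvd_factorial Nat.prime_two).2 (by omega)
  have hf : (m ! / 2).factorization r = (m !).factorization r := by
    rw [Nat.factorization_div h2]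
    simp [Nat.prime_two.factorization, hr2.symm]
  have h3 : k * (m !).factorization r ≤ k * m.factorization r := by
    have := (Nat.factorization_le_iff_dvd (pow_ne_zero k (by
      have := Nat.factorial_pos m
      have := Nat.le_of_dvd this h2
      omega)) hN).2 hdvd r
    rw [Nat.factorization_pow, Finsupp.smul_apply, hf, smul_eq_mul] at this
    exact this.trans hv
  have h4 : (m !).factorization r ≤ m.factorization r := Nat.le_of_mul_le_mul_left h3 hk
  obtain ⟨m', rfl⟩ : ∃ m', m = m' + 1 := ⟨m - 1, by omega⟩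
  rw [Nat.factorial_succ, Nat.factorization_mul hm0 (Nat.factorial_ne_zero _), Finsupp.add_apply] at h4
  have h5 : (m' !).factorization r = 0 := by omega
  have h6 : ¬ r ∣ m' ! := by
    intro h
    have := (hr.dvd_iff_one_le_factorization (Nat.factorial_ne_zero _)).1 h
    omega
  rw [hr.dvd_factorial] at h6
  have h7 := Nat.le_of_dvd (by omega) hrm
  omega

theorem pow_ne_of_lt {m k c : ℕ} (hm : 5 ≤ m) (hk : 2 ≤ k) (hc : c ≤ 276)
    (h : ∀ m ∈ Finset.Icc 5 16, ∀ k ∈ Finset.Icc 2 3, m ^ k ≠ c) : m ^ k ≠ c := by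
  intro he
  have hk3 : k ≤ 3 := by
    by_contra hcon
    have h1 : 5 ^ 4 ≤ m ^ k := (Nat.pow_le_pow_left hm 4).trans (Nat.pow_le_pow_right (by omega) (by omega))
    norm_num at h1
    omega
  have hm16 : m ≤ 16 := by
    by_contra hcon
    have h1 : 17 ^ 2 ≤ m ^ k := (Nat.pow_le_pow_left (by omega) 2).trans (Nat.pow_le_pow_right (by omega) hk)
    norm_num at h1
    omega
  exact h m (by simp; omega) k (by simp; omega) he

theorem factorization_sub {q d r : ℕ} (hr : r.Prime)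
    (hpr : ∀ j, r ∣ q ^ j - 1 ↔ d ∣ j) (hrq : ¬ r ∣ q) (i : ℕ) (hi : 1 ≤ i) (hid : i < d) :
    (q ^ d - q ^ i).factorization r = 0 := by
  apply Nat.factorization_eq_zero_of_not_dvd
  intro h
  have e : q ^ d - q ^ i = q ^ i * (q ^ (d - i) - 1) := by
    rw [Nat.mul_sub, mul_one, ← pow_add]
    congr 2; omega
  rw [e, hr.dvd_mul] at h
  rcases h with h | h
  · exact hrq (hr.dvd_of_dvd_pow h)
  · have := Nat.le_of_dvd (by omega) ((hpr _).1 h)
    omega

theorem no_five {f k : ℕ} (hk : 2 ≤ k) (h : 2 ^ f + 1 = 5 ^ k) : False := by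
  have h25 : 25 ≤ 5 ^ k := by
    calc 25 = 5 ^ 2 := by norm_num
      _ ≤ 5 ^ k := Nat.pow_le_pow_right (by norm_num) hk
  have hf : 4 ≤ f := by
    by_contra hcon
    have : 2 ^ f ≤ 2 ^ 3 := Nat.pow_le_pow_right (by norm_num) (by omega)
    norm_num at this
    omega
  have h16 : 5 ^ k % 16 = 1 := by
    obtain ⟨g, rfl⟩ : ∃ g, f = 4 + g := ⟨f - 4, by omega⟩
    rw [← h, pow_add]
    norm_num
  have h4 : k % 4 = 0 := by
    have h1 : 5 ^ k = (5 ^ 4) ^ (k / 4) * 5 ^ (k % 4) := by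
      rw [← pow_mul, ← pow_add]
      congr 1; omega
    have h2 : (5 ^ 4) ^ (k / 4) % 16 = 1 := by
      rw [Nat.pow_mod]; norm_num
    rw [h1, Nat.mul_mod, h2] at h16
    have : k % 4 < 4 := Nat.mod_lt _ (by norm_num)
    interval_cases (k % 4) <;> simp_all
  obtain ⟨c, rfl⟩ : 4 ∣ k := Nat.dvd_of_mod_eq_zero h4
  have h13 : 13 ∣ 2 ^ f := by
    have : 5 ^ (4 * c) % 13 = 1 := by
      rw [pow_mul, Nat.pow_mod]; norm_num
    have h' : (2 ^ f + 1) % 13 = 1 := by rw [h]; exact this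
    omega
  have := (Nat.Prime.dvd_of_dvd_pow (by norm_num) h13)
  omega

/-- The Mersenne case. -/
theorem no_mersenne {q a m k N : ℕ} (hq : 4 ≤ q) (ha : q + 1 = 2 ^ a) (hnm : q + 1 = m ^ k)
    (hm : 5 ≤ m) (hk : 2 ≤ k) (hN : Nat.gcd 2 (q - 1) * N = (q ^ 2 - 1) * q)
    (hdvd : (m ! / 2) ^ k ∣ N) : False := by
  -- `m = 2 ^ b`
  have h1 : m ∣ 2 ^ a := by rw [← ha, hnm]; exact dvd_pow_self m (by omega)
  obtain ⟨b, -, rfl⟩ := (Nat.dvd_prime_pow Nat.prime_two).1 h1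
  have hab : a = b * k := by
    rw [ha, ← pow_mul] at hnm
    exact Nat.pow_right_injective (le_refl 2) hnm
  have hb : 3 ≤ b := by
    by_contra hcon
    have : 2 ^ b ≤ 2 ^ 2 := Nat.pow_le_pow_right (by norm_num) (by omega)
    omega
  -- `2 ^ (a + k)` divides `N`
  have h4 : 4 ∣ (2 ^ b - 1)! := Nat.dvd_factorial (by norm_num) (by omega)
  obtain ⟨c, hc⟩ := h4
  have h5 : (2 ^ b)! = 2 * (2 ^ (b + 1) * c) := by
    have : (2 ^ b)! = 2 ^ b * (2 ^ b - 1)! := by
      rw [Nat.mul_factorial_pred (by positivity)]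
    rw [this, hc]; ring
  have h6 : (2 ^ b)! / 2 = 2 ^ (b + 1) * c := by rw [h5]; omega
  have h7 : 2 ^ (a + k) ∣ N := by
    refine Dvd.dvd.trans ?_ hdvd
    rw [h6, mul_pow, ← pow_mul]
    refine Dvd.dvd.trans ?_ (dvd_mul_right _ _)
    rw [hab, show (b + 1) * k = b * k + k by ring]
  have ha1 : 6 ≤ a := by rw [hab]; nlinarith
  obtain ⟨a', rfl⟩ : ∃ a', a = a' + 1 := ⟨a - 1, by omega⟩
  have hq1 : q = 2 * 2 ^ a' - 1 := by rw [pow_succ] at ha; omega
  have hpos : 2 ^ 5 ≤ 2 ^ a' := Nat.pow_le_pow_right (by norm_num) (by omega)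
  have hg : Nat.gcd 2 (q - 1) = 2 := Nat.gcd_eq_left (by omega)
  have h8 : N = (2 ^ a' - 1) * 2 ^ (a' + 1) * q := by
    have e1 : (q ^ 2 - 1) = (q + 1) * (q - 1) := by
      rw [← Nat.sq_sub_sq]
    have e2 : q - 1 = 2 * (2 ^ a' - 1) := by omega
    rw [hg, e1, ha, e2] at hN
    have : 2 * N = 2 * ((2 ^ a' - 1) * 2 ^ (a' + 1) * q) := by rw [hN]; ring
    omega
  have h9 : 2 ^ (a' + 1) * 2 ∣ 2 ^ (a' + 1) * ((2 ^ a' - 1) * q) := by
    have e3 : 2 ^ (a' + 1) * ((2 ^ a' - 1) * q) = N := by rw [h8]; ring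
    rw [e3]
    refine Dvd.dvd.trans ?_ h7
    rw [← pow_succ]
    exact pow_dvd_pow 2 (by omega)
  have h10 : 2 ∣ (2 ^ a' - 1) * q := Nat.dvd_of_mul_dvd_mul_left (by positivity) h9
  rw [Nat.prime_two.dvd_mul] at h10
  have h11 : 2 ^ a' % 2 = 0 := by
    obtain ⟨a'', rfl⟩ : ∃ a'', a' = a'' + 1 := ⟨a' - 1, by omega⟩
    rw [pow_succ]; omega
  omega

theorem geom_dvd {q e d : ℕ} (hq : 2 ≤ q) (hed : e ∣ d) {n : ℕ} (hn : n * (q - 1) = q ^ d - 1) :
    ∃ s c, s * (q - 1) = q ^ e - 1 ∧ n = s * c := by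
  obtain ⟨s, hs⟩ : (q - 1) ∣ q ^ e - 1 := by simpa using Nat.sub_dvd_pow_sub_pow q 1 e
  obtain ⟨c, hc⟩ : (q ^ e - 1) ∣ q ^ d - 1 := by
    obtain ⟨f, rfl⟩ := hed
    have := Nat.sub_dvd_pow_sub_pow (q ^ e) 1 f
    rwa [one_pow, ← pow_mul] at this
  refine ⟨s, c, by rw [hs]; ring, ?_⟩
  have : n * (q - 1) = s * c * (q - 1) := by rw [hn, hc, hs]; ring
  exact Nat.eq_of_mul_eq_mul_right (by omega) this

theorem lt_n {q d n : ℕ} (hq : 2 ≤ q) (hd : 2 ≤ d) (hn : n * (q - 1) = q ^ d - 1) : q ^ (d - 1) < n := by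
  have h1 : q ^ (d - 1) * (q - 1) < n * (q - 1) := by
    rw [hn, Nat.mul_sub, mul_one, ← pow_succ, Nat.sub_add_cancel (by omega)]
    have h2 : 1 < q ^ (d - 1) := Nat.one_lt_pow (by omega) (by omega)
    have h3 : q ^ (d - 1) < q ^ d := Nat.pow_lt_pow_right (by omega) (by omega)
    omega
  exact lt_of_mul_lt_mul_right h1 (Nat.zero_le _)

/-- The bound `|PSL_d(q)| < n ^ (d + 1)`. -/
theorem card_lt {q d n N : ℕ} (hq : 2 ≤ q) (hd : 2 ≤ d) (hn : n * (q - 1) = q ^ d - 1)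
    (hN : Nat.gcd d (q - 1) * ((q - 1) * N) = ∏ i : Fin d, (q ^ d - q ^ (i : ℕ))) : N < n ^ (d + 1) := by
  have hlt := lt_n hq hd hn
  obtain ⟨d', rfl⟩ : ∃ d', d = d' + 1 := ⟨d - 1, by omega⟩
  rw [Fin.prod_univ_succ] at hN
  have h1 : ∏ i : Fin d', (q ^ (d' + 1) - q ^ ((Fin.succ i : Fin (d' + 1)) : ℕ)) ≤ (q ^ (d' + 1)) ^ d' := by
    calc _ ≤ ∏ i : Fin d', q ^ (d' + 1) := prod_le_prod' (fun i _ => Nat.sub_le _ _)
      _ = _ := by simp
  have hg : 1 ≤ Nat.gcd (d' + 1) (q - 1) := Nat.gcd_pos_of_pos_left _ (by omega)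
  have h2 : (q - 1) * N ≤ (q - 1) * (n * (q ^ (d' + 1)) ^ d') := by
    calc (q - 1) * N ≤ Nat.gcd (d' + 1) (q - 1) * ((q - 1) * N) := Nat.le_mul_of_pos_left _ hg
      _ = _ := hN
      _ ≤ (q ^ (d' + 1) - 1) * (q ^ (d' + 1)) ^ d' := by
          simp only [Fin.val_zero, pow_zero]
          exact Nat.mul_le_mul_left _ h1
      _ = _ := by rw [← hn]; ring
  have h3 : N ≤ n * (q ^ (d' + 1)) ^ d' := Nat.le_of_mul_le_mul_left h2 (by omega)
  have h4 : (q ^ (d' + 1)) ^ d' = (q ^ d') ^ (d' + 1) := by rw [← pow_mul, ← pow_mul, mul_comm]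
  rw [Nat.add_sub_cancel] at hlt
  have h5 : (q ^ d') ^ (d' + 1) < n ^ (d' + 1) := Nat.pow_lt_pow_left hlt (by omega)
  calc N ≤ n * (q ^ d') ^ (d' + 1) := by rw [← h4]; exact h3
    _ < n * n ^ (d' + 1) := Nat.mul_lt_mul_of_pos_left h5 (by omega)
    _ = n ^ (d' + 1 + 1) := by ring

theorem no_psl {q d n m k N : ℕ} (hqp : IsPrimePow q) (hd : 2 ≤ d) (hd2 : d = 2 → 4 ≤ q)
    (hn : n * (q - 1) = q ^ d - 1) (hnm : n = m ^ k) (hm : 5 ≤ m) (hk : 2 ≤ k)
    (hN : Nat.gcd d (q - 1) * ((q - 1) * N) = ∏ i : Fin d, (q ^ d - q ^ (i : ℕ)))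
    (hdvd : (m ! / 2) ^ k ∣ N) : False := by
  have hq : 2 ≤ q := hqp.two_le
  have hq1 : 0 < q - 1 := by omega
  have hprod : ∏ i : Fin d, (q ^ d - q ^ (i : ℕ)) ≠ 0 := by
    rw [prod_ne_zero_iff]
    intro i _
    have := Nat.pow_lt_pow_right (show 1 < q by omega) i.2
    omega
  have hN0 : N ≠ 0 := by
    rintro rfl
    rw [mul_zero, mul_zero] at hN
    exact hprod hN.symm
  by_cases hmer : d = 2 ∧ ∃ a, q + 1 = 2 ^ a
  · obtain ⟨rfl, a, ha⟩ := hmer
    have hnq : n = q + 1 := by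
      have : n * (q - 1) = (q + 1) * (q - 1) := by
        rw [hn, ← Nat.sq_sub_sq]
      exact Nat.eq_of_mul_eq_mul_right hq1 this
    refine no_mersenne (hd2 rfl) ha (by rw [← hnq]; exact hnm) hm hk ?_ hdvd
    rw [Fin.prod_univ_two] at hN
    have e : (q - 1) * (Nat.gcd 2 (q - 1) * N) = (q - 1) * ((q ^ 2 - 1) * q) := by
      calc (q - 1) * (Nat.gcd 2 (q - 1) * N) = Nat.gcd 2 (q - 1) * ((q - 1) * N) := by ring
        _ = (q ^ 2 - 1) * (q ^ 2 - q) := by rw [hN]; simp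
        _ = _ := by
            rw [show q ^ 2 - q = (q - 1) * q by rw [Nat.sub_mul, one_mul, pow_two]]
            ring
    exact Nat.eq_of_mul_eq_mul_left hq1 e
  by_cases h63 : q = 2 ∧ d = 6
  · obtain ⟨rfl, rfl⟩ := h63
    norm_num at hn
    rw [hn] at hnm
    exact pow_ne_of_lt hm hk (by norm_num) (by decide) hnm.symm
  -- a primitive prime
  obtain ⟨r, hr, hpr, hdr, hrq⟩ := Lib.Zsigmondy.exists_primitive (a := q) (n := d) hq hd
    (fun h2 hk => hmer ⟨h2, hk⟩) h63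
  have hr2 : r ≠ 2 := by
    rintro rfl
    have := Nat.le_of_dvd (by norm_num) hdr
    omega
  have hrq1 : ¬ r ∣ q - 1 := by
    intro h
    have := (hpr 1).1 (by simpa using h)
    have := Nat.le_of_dvd one_pos this
    omega
  have hrn : r ∣ n := by
    have h1 : r ∣ n * (q - 1) := by rw [hn]; exact (hpr d).2 dvd_rfl
    rcases hr.dvd_mul.1 h1 with h | h
    · exact h
    · exact absurd h hrq1
  have hrm : r ∣ m := hr.dvd_of_dvd_pow (by rw [← hnm]; exact hrn)
  have hn0 : n ≠ 0 := by rw [hnm]; positivity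
  have hv : N.factorization r ≤ k * m.factorization r := by
    have h1 : N.factorization r ≤ (∏ i : Fin d, (q ^ d - q ^ (i : ℕ))).factorization r := by
      have : N ∣ ∏ i : Fin d, (q ^ d - q ^ (i : ℕ)) := by
        rw [← hN]
        exact Dvd.intro_left _ (by rw [← mul_assoc])
      exact (Nat.factorization_le_iff_dvd hN0 hprod).2 this r
    have h2 : (∏ i : Fin d, (q ^ d - q ^ (i : ℕ))).factorization r = (q ^ d - 1).factorization r := by
      rw [Nat.factorization_prod (fun i hi => (prod_ne_zero_iff.1 hprod) i hi), Finsupp.finsetSum_apply]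
      rw [Finset.sum_eq_single (⟨0, by omega⟩ : Fin d)]
      · simp
      · intro i _ hi
        apply factorization_sub hr hpr hrq _ _ i.2
        have : (i : ℕ) ≠ 0 := fun h => hi (Fin.ext h)
        omega
      · intro h; exact absurd (mem_univ _) h
    rw [h2, ← hn, Nat.factorization_mul hn0 (by omega), Finsupp.add_apply,
      Nat.factorization_eq_zero_of_not_dvd hrq1, add_zero, hnm, Nat.factorization_pow,
      Finsupp.smul_apply, smul_eq_mul] at h1
    exact h1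
  have hmr := eq_prime hm (by omega) hN0 hr hr2 hrm hdvd hv
  subst hmr
  have hlt := card_lt hq hd hn hN
  have hle := Nat.le_of_dvd (Nat.pos_of_ne_zero hN0) hdvd
  -- the final size argument
  have hfin : ¬ (m ^ (d + 1) ≤ m ! / 2) := by
    intro h
    have h1 : (m ^ (d + 1)) ^ k ≤ (m ! / 2) ^ k := Nat.pow_le_pow_left h k
    rw [hnm, ← pow_mul, mul_comm k, pow_mul] at hlt
    omega
  have hbound : ∀ e, 3 ≤ e → d ≤ e → 2 * e ≤ m - 1 → False := by
    intro e he hde hem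
    apply hfin
    have h1 := factorial_ge e (m - 1) he hem
    rw [Nat.sub_add_cancel (by omega)] at h1
    have h2 : m ! = m * (m - 1)! := (Nat.mul_factorial_pred (by omega)).symm
    rw [h2, Nat.le_div_iff_mul_le (by norm_num)]
    calc m ^ (d + 1) * 2 ≤ m ^ (e + 1) * 2 :=
          Nat.mul_le_mul_right _ (Nat.pow_le_pow_right (by omega) (by omega))
      _ = m * (2 * m ^ e) := by ring
      _ ≤ m * (m - 1)! := Nat.mul_le_mul_left _ h1
  rcases eq_or_lt_of_le hd with h2 | h2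
  · -- `d = 2`
    subst h2
    rcases le_or_gt 7 m with h7 | h7
    · exact hbound 3 (by norm_num) (by norm_num) (by omega)
    · have hm5 : m = 5 := by
        have : m = 5 ∨ m = 6 := by omega
        rcases this with h | h
        · exact h
        · subst h; exact absurd hr (by norm_num)
      subst hm5
      have hnq : n = q + 1 := by
        have : n * (q - 1) = (q + 1) * (q - 1) := by
          rw [hn, ← Nat.sq_sub_sq]
        exact Nat.eq_of_mul_eq_mul_right hq1 this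
      -- `q` is even
      obtain ⟨p, f, hp, hf, rfl⟩ := hqp
      have hp' : p.Prime := Nat.prime_iff.2 hp
      have hodd : 5 ^ k % 2 = 1 := by rw [Nat.pow_mod]; norm_num
      have h2p : 2 ∣ p ^ f := by omega
      have : p = 2 := ((Nat.prime_dvd_prime_iff_eq Nat.prime_two hp').1 (Nat.prime_two.dvd_of_dvd_pow h2p)).symm
      subst this
      exact no_five hk (by rw [← hnq]; exact hnm)
  · -- `d` is odd
    have hodd : d % 2 = 1 := by
      by_contra hcon
      have h2d : 2 ∣ d := by omega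
      obtain ⟨s, c, hs, hsc⟩ := geom_dvd hq h2d hn
      have h3 : s ∣ m ^ k := by rw [← hnm, hsc]; exact dvd_mul_right _ _
      obtain ⟨j, -, hj⟩ := (Nat.dvd_prime_pow hr).1 h3
      have hs1 : s = q + 1 := by
        have : s * (q - 1) = (q + 1) * (q - 1) := by
          rw [hs, ← Nat.sq_sub_sq]
        exact Nat.eq_of_mul_eq_mul_right hq1 this
      have hj0 : j ≠ 0 := by
        rintro rfl
        rw [pow_zero] at hj
        omega
      have h4 : m ∣ q ^ 2 - 1 := by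
        rw [← hs, hj]
        exact Dvd.dvd.mul_right (dvd_pow_self m hj0) _
      have := Nat.le_of_dvd (by norm_num) ((hpr 2).1 h4)
      omega
    have h2m : 2 * d ∣ m - 1 := by
      apply Nat.Coprime.mul_dvd_of_dvd_of_dvd
      · rw [Nat.coprime_two_left]; exact Nat.odd_iff.2 hodd
      · have := hr.eq_two_or_odd
        omega
      · exact hdr
    exact hbound d h2 le_rfl (Nat.le_of_dvd (by omega) h2m)

end Cfsg.Agent.H904.HamArith
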