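import Mathlib

/-!
# Automorphisms of the Hamming graph

A permutation of `ι → α` preserving the pairs at Hamming distance 1 is a monomial map.
-/

set_option autoImplicit false

namespace Cfsg.Agent.H904.HamAut

open Finset Function

variable {ι α : Type*} [Fintype ι] [DecidableEq ι] [Fintype α] [DecidableEq α]

/-- `x` and `y` differ exactly in the coordinate `i`. -/
def Adj (i : ι) (x y : ι → α) : Prop := x i ≠ y i ∧ ∀ j, j ≠ i → x j = y j

omit [Fintype ι] [DecidableEq ι] [Fintype α] [DecidableEq α] in
theorem Adj.symm {i : ι} {x y : ι → α} (h : Adj i x y) : Adj i y x :=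
  ⟨h.1.symm, fun j hj => (h.2 j hj).symm⟩

omit [Fintype ι] [Fintype α] [DecidableEq α] in
theorem Adj.eq {i j : ι} {x y : ι → α} (h : Adj i x y) (h' : Adj j x y) : i = j := by
  by_contra hne
  exact h.1 (h'.2 i hne)

omit [Fintype ι] [Fintype α] [DecidableEq α] in
theorem adj_update {i : ι} {x : ι → α} {c : α} (hc : c ≠ x i) : Adj i x (update x i c) :=
  ⟨by simpa using hc.symm, fun j hj => by simp [hj]⟩

omit [Fintype ι] [Fintype α] [DecidableEq α] in
theorem Adj.eq_update {i : ι} {x y : ι → α} (h : Adj i x y) : y = update x i (y i) := by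
  ext j
  by_cases hj : j = i
  · subst hj; simp
  · simp [hj, h.2 j hj]

omit [Fintype α] in
theorem dist_eq_one_iff {x y : ι → α} : hammingDist x y = 1 ↔ ∃ i, Adj i x y := by
  rw [hammingDist, card_eq_one]
  constructor
  · rintro ⟨i, hi⟩
    refine ⟨i, ?_, fun j hj => ?_⟩
    · have : i ∈ ({i | x i ≠ y i} : Finset ι) := by rw [hi]; simp
      simpa using this
    · by_contra hne
      have : j ∈ ({i | x i ≠ y i} : Finset ι) := by simpa using hne
      rw [hi] at this
      exact hj (by simpa using this)
  · rintro ⟨i, h1, h2⟩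
    refine ⟨i, ?_⟩
    ext j
    simp only [mem_filter, mem_univ, true_and, mem_singleton]
    constructor
    · intro h
      by_contra hne
      exact h (h2 j hne)
    · rintro rfl; exact h1

omit [Fintype ι] [Fintype α] [DecidableEq α] in
theorem tri {j j' l : ι} {a b c : ι → α} (h1 : Adj j a b) (h2 : Adj j' a c) (h3 : Adj l b c) :
    j = j' := by
  by_contra hne
  have e1 : l = j := by
    by_contra hl
    have := h3.2 j (Ne.symm hl)
    rw [← h2.2 j hne] at this
    exact h1.1 this.symm
  have e2 : l = j' := by
    by_contra hl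
    have := h3.2 j' (Ne.symm hl)
    rw [← h1.2 j' (Ne.symm hne)] at this
    exact h2.1 this
  exact hne (e1.symm.trans e2)

omit [Fintype ι] [Fintype α] [DecidableEq α] in
/-- Going from `x` to `y` coordinate by coordinate. -/
theorem induct [Finite ι] {P : (ι → α) → (ι → α) → Prop} (hr : ∀ x, P x x) (ht : ∀ x y z, P x y → P y z → P x z)
    (S : Set ι) (h : ∀ i ∈ S, ∀ (x : ι → α) (c : α), P x (update x i c)) (x y : ι → α)
    (hxy : ∀ i, i ∉ S → x i = y i) : P x y := by
  classical
  have := Fintype.ofFinite ι
  have key : ∀ s : Finset ι, P x (fun i => if i ∈ s then y i else x i) := by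
    intro s
    induction s using Finset.induction_on with
    | empty => simpa using hr x
    | insert a s ha ih =>
      refine ht _ _ _ ih ?_
      by_cases haS : a ∈ S
      · have := h a haS (fun i => if i ∈ s then y i else x i) (y a)
        convert this using 1
        ext i
        by_cases hi : i = a
        · subst hi; simp
        · simp [hi]
      · convert hr (fun i => if i ∈ s then y i else x i) using 1
        ext i
        by_cases hi : i = a
        · subst hi; simp [ha, hxy i haS]
        · simp [hi]
  have := key univ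
  simpa using this

variable (σ : Equiv.Perm (ι → α))

/-- **Automorphisms of the Hamming graph** (at least two letters). -/
theorem exists_wreath (hα : 2 ≤ Fintype.card α)
    (hσ : ∀ x y, hammingDist x y = 1 ↔ hammingDist (σ x) (σ y) = 1) :
    ∃ (π : Equiv.Perm ι) (τ : ι → Equiv.Perm α), ∀ f i, σ f i = τ i (f (π.symm i)) := by
  classical
  have hne : ∀ a : α, ∃ c, c ≠ a := fun a => by
    have : Nontrivial α := Fintype.one_lt_card_iff_nontrivial.1 (by omega)
    exact exists_ne a
  have hadj : ∀ {i : ι} {x y : ι → α}, Adj i x y → ∃ j, Adj j (σ x) (σ y) := by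
    intro i x y h
    exact dist_eq_one_iff.1 ((hσ x y).1 (dist_eq_one_iff.2 ⟨i, h⟩))
  have hadj' : ∀ {j : ι} {x y : ι → α}, Adj j (σ x) (σ y) → ∃ i, Adj i x y := by
    intro j x y h
    exact dist_eq_one_iff.1 ((hσ x y).2 (dist_eq_one_iff.2 ⟨j, h⟩))
  -- directions
  have L1 : ∀ (x : ι → α) (i : ι), ∃ j, ∀ y, Adj i x y → Adj j (σ x) (σ y) := by
    intro x i
    obtain ⟨c₀, hc₀⟩ := hne (x i)
    obtain ⟨j, hj⟩ := hadj (adj_update hc₀)
    refine ⟨j, fun y hy => ?_⟩
    by_cases hc : y i = c₀
    · rw [hy.eq_update, hc]; exact hj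
    · obtain ⟨j', hj'⟩ := hadj hy
      have h3 : Adj i (update x i c₀) y := by
        refine ⟨by simpa using Ne.symm hc, fun l hl => ?_⟩
        rw [update_of_ne hl]; exact hy.2 l hl
      obtain ⟨l, hl⟩ := hadj h3
      rw [tri hj hj' hl]
      exact hj'
  choose p hp using L1
  have L2 : ∀ x, Injective (p x) := by
    intro x i i' hii
    by_contra hne'
    obtain ⟨c, hc⟩ := hne (x i)
    obtain ⟨c', hc'⟩ := hne (x i')
    have h1 := hp x i _ (adj_update hc)
    have h2 := hp x i' _ (adj_update hc')
    rw [← hii] at h2
    have hneq : update x i c ≠ update x i' c' := by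
      intro h
      have := congrFun h i
      rw [update_self, update_of_ne hne'] at this
      exact hc this
    have h3 : Adj (p x i) (σ (update x i c)) (σ (update x i' c')) := by
      refine ⟨fun h => ?_, fun j hj => (h1.2 j hj).symm.trans (h2.2 j hj)⟩
      apply hneq
      apply σ.injective
      ext j
      by_cases hj : j = p x i
      · rw [hj]; exact h
      · exact (h1.2 j hj).symm.trans (h2.2 j hj)
    obtain ⟨l, hl⟩ := hadj' h3
    have e1 : l = i := by
      by_contra hli
      have := hl.2 i (Ne.symm hli)
      rw [update_self, update_of_ne hne'] at this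
      exact hc this
    have e2 : l = i' := by
      by_contra hli
      have := hl.2 i' (Ne.symm hli)
      rw [update_self, update_of_ne (Ne.symm hne')] at this
      exact hc' this.symm
    exact hne' (e1.symm.trans e2)
  have L3 : ∀ (l : ι) (x y : ι → α), Adj l x y → p x = p y := by
    intro l x y hxy
    funext i
    by_cases hil : i = l
    · subst hil
      exact (hp x i y hxy).eq (hp y i x hxy.symm).symm
    · obtain ⟨c, hc⟩ := hne (x i)
      have hxi : x i = y i := hxy.2 i hil
      have a1 := hp x i _ (adj_update hc)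
      have a2 := hp y i (update y i c) (adj_update (by rwa [← hxi]))
      have a3 := hp x l y hxy
      have h4 : Adj l (update x i c) (update y i c) := by
        refine ⟨?_, fun j hj => ?_⟩
        · rw [update_of_ne (Ne.symm hil), update_of_ne (Ne.symm hil)]; exact hxy.1
        · by_cases hji : j = i
          · subst hji; simp
          · rw [update_of_ne hji, update_of_ne hji]; exact hxy.2 j hj
      obtain ⟨q, hq⟩ := hadj h4
      have hjj : p x i ≠ p x l := fun h => hil (L2 x h)
      by_contra hne3
      -- `σ y'` and `σ x'` differ at `p x i`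
      have e1 : q = p x i := by
        by_contra hqn
        have b1 := hq.2 (p x i) (Ne.symm hqn)
        have b2 := a2.2 (p x i) hne3
        have b3 := a3.2 (p x i) hjj
        exact a1.1 (b3.trans (b2.trans b1.symm))
      have e2 : p y i = p x l := by
        by_contra hqn
        have b1 := a2.2 (p x l) (Ne.symm hqn)
        have b2 := hq.2 (p x l) (by rw [e1]; exact Ne.symm hjj)
        have b3 := a1.2 (p x l) (Ne.symm hjj)
        exact a3.1 (b3.trans (b2.trans b1.symm))
      have e3 : σ (update y i c) = σ x := by
        ext j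
        by_cases hj1 : j = p x i
        · rw [hj1, ← a2.2 (p x i) hne3, ← a3.2 (p x i) hjj]
        · have := hq.2 j (by rw [e1]; exact hj1)
          rw [← this, ← a1.2 j hj1]
      have e4 := congrFun (σ.injective e3) i
      rw [update_self] at e4
      exact hc e4
  have L4 : ∀ x y, p x = p y := by
    intro x y
    refine induct (P := fun x y => p x = p y) (fun _ => rfl) (fun _ _ _ => Eq.trans) Set.univ ?_ x y
      (fun i hi => absurd (Set.mem_univ i) hi)
    intro i _ x c
    by_cases hc : c = x i
    · rw [hc, update_eq_self]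
    · exact L3 i _ _ (adj_update hc)
  have L5 : ∀ (i : ι) (x y : ι → α), x i = y i → σ x (p x i) = σ y (p y i) := by
    intro i x y hxy
    rw [L4 y x]
    refine induct (P := fun x' y' => p x' i = p x i → σ x' (p x i) = σ y' (p x i)) (fun _ _ => rfl)
      (fun a b c h1 h2 h => (h1 h).trans (h2 ((congrFun (L4 b a) i).trans h))) {j | j ≠ i} ?_ x y
      (fun j hj => by
        have : j = i := not_not.1 hj
        rw [this]; exact hxy) rfl
    intro l hl x' c hx'
    by_cases hc : c = x' l
    · rw [hc, update_eq_self]
    · have h1 := hp x' l _ (adj_update hc)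
      apply h1.2
      rw [← hx']
      intro h
      exact hl (L2 x' h).symm
  rcases isEmpty_or_nonempty (ι → α) with he | ⟨⟨x₀⟩⟩
  · exact ⟨1, fun _ => 1, fun f => he.elim f⟩
  let π : Equiv.Perm ι := Equiv.ofBijective (p x₀) (Finite.injective_iff_bijective.1 (L2 x₀))
  have hπ : ∀ i, π i = p x₀ i := fun i => rfl
  have hinj : ∀ j, Injective fun c => σ (update x₀ (π.symm j) c) j := by
    intro j c c' hcc
    by_contra hne4
    have h1 : Adj (π.symm j) (update x₀ (π.symm j) c) (update x₀ (π.symm j) c') := by
      refine ⟨by simpa using hne4, fun l hl => by simp [hl]⟩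
    have h2 := hp _ _ _ h1
    rw [L4 _ x₀, ← hπ, Equiv.apply_symm_apply] at h2
    exact h2.1 hcc
  refine ⟨π, fun j => Equiv.ofBijective _ (Finite.injective_iff_bijective.1 (hinj j)), fun f j => ?_⟩
  have h := L5 (π.symm j) f (update x₀ (π.symm j) (f (π.symm j))) (by simp)
  rw [L4 f x₀, L4 (update x₀ (π.symm j) (f (π.symm j))) x₀, ← hπ, Equiv.apply_symm_apply] at h
  exact h

end Cfsg.Agent.H904.HamAut
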