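import Mathlib

/-!
# Fusing distances in the Hamming scheme

`core` : let `g` be a property of natural numbers (a union of distances), `N x y` the number of `z` for which
`g (d z x)` and `g (d z y)` differ.  If `N x y = N x y'` where `d x y ≥ 2` and `y'` agrees with `x` except in one
coordinate, then `g` is constant on the positive distances (the alphabet has at least 5 letters).
-/

set_option autoImplicit false

namespace Cfsg.Agent.H904.HamCount

open Finset Function

variable {ι α : Type*} [Fintype ι] [DecidableEq ι] [Fintype α] [DecidableEq α]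

/-- Number of mismatches off the coordinate `i₀`. -/
def mis (x : ι → α) (i₀ : ι) (z : ι → α) : ℕ := #{i | i ≠ i₀ ∧ z i ≠ x i}

omit [Fintype α] in
theorem dist_update (x z : ι → α) (i₀ : ι) (c : α) :
    hammingDist (update z i₀ c) x = mis x i₀ z + if c = x i₀ then 0 else 1 := by
  classical
  rw [hammingDist, mis]
  split_ifs with h
  · rw [add_zero]
    congr 1
    ext i
    simp only [mem_filter, mem_univ, true_and]
    by_cases hi : i = i₀
    · subst hi; simp [h]
    · simp [hi]
  · have : ({i | update z i₀ c i ≠ x i} : Finset ι) = insert i₀ ({i | i ≠ i₀ ∧ z i ≠ x i} : Finset ι) := by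
      ext i
      simp only [mem_filter, mem_univ, true_and, mem_insert]
      by_cases hi : i = i₀
      · subst hi; simp [h]
      · simp [hi]
    rw [this, card_insert_of_notMem (by simp)]

omit [Fintype α] in
theorem mis_congr (x x' : ι → α) (i₀ : ι) (z : ι → α) (h : ∀ i, i ≠ i₀ → x i = x' i) :
    mis x i₀ z = mis x' i₀ z := by
  rw [mis, mis]
  congr 1
  ext i
  simp only [mem_filter, mem_univ, true_and]
  constructor
  · rintro ⟨h1, h2⟩; exact ⟨h1, by rwa [← h i h1]⟩
  · rintro ⟨h1, h2⟩; exact ⟨h1, by rwa [h i h1]⟩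

omit [DecidableEq α] in
/-- Updating and averaging. -/
theorem sum_update (i₀ : ι) (f : (ι → α) → ℕ) :
    ∑ z : ι → α, ∑ c : α, f (update z i₀ c) = Fintype.card α * ∑ z : ι → α, f z := by
  classical
  rw [← Fintype.sum_prod_type' (f := fun (z : ι → α) (c : α) => f (update z i₀ c))]
  let e : ((ι → α) × α) ≃ ((ι → α) × α) :=
    { toFun := fun p => (update p.1 i₀ p.2, p.1 i₀)
      invFun := fun p => (update p.1 i₀ p.2, p.1 i₀)
      left_inv := fun p => by simp
      right_inv := fun p => by simp }
  have := e.sum_comp (fun p => f p.1)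
  have h2 : ∑ p : (ι → α) × α, f (e p).1 = ∑ p : (ι → α) × α, f (update p.1 i₀ p.2) := rfl
  rw [← h2, this, Fintype.sum_prod_type]
  simp [mul_sum]

/-- Indicator of difference. -/
noncomputable def e (a b : Prop) : ℕ := by classical exact if (a ↔ b) then 0 else 1

theorem e_comm (a b : Prop) : e a b = e b a := by
  unfold e
  by_cases ha : a <;> by_cases hb : b <;> simp [ha, hb]

theorem e_self (a : Prop) : e a a = 0 := by unfold e; simp

theorem e_tri (a b c : Prop) : e a c ≤ e a b + e b c := by
  unfold e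
  by_cases ha : a <;> by_cases hb : b <;> by_cases hc : c <;> simp [ha, hb, hc]

theorem e_eq_zero {a b : Prop} (h : e a b = 0) : a ↔ b := by
  unfold e at h
  by_contra hcon
  simp [hcon] at h

/-- Number of `z` that distinguish `x` and `y`. -/
noncomputable def N (g : ℕ → Prop) (x y : ι → α) : ℕ :=
  ∑ z : ι → α, e (g (hammingDist z x)) (g (hammingDist z y))

theorem sum_letters (g : ℕ → Prop) (A B : ℕ) {a b : α} (hab : a ≠ b) :
    ∑ c : α, e (g (A + if c = a then 0 else 1)) (g (B + if c = b then 0 else 1)) =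
      e (g A) (g (B + 1)) + e (g (A + 1)) (g B) +
        (Fintype.card α - 2) * e (g (A + 1)) (g (B + 1)) := by
  classical
  have h1 : (univ : Finset α) = insert a (insert b ((univ.erase a).erase b)) := by
    ext c
    by_cases h1 : c = a
    · simp [h1]
    · by_cases h2 : c = b
      · simp [h2]
      · simp [h1, h2]
  have h2 : ((univ.erase a).erase b : Finset α).card = Fintype.card α - 2 := by
    rw [card_erase_of_mem (by simp [hab.symm]), card_erase_of_mem (mem_univ _), card_univ]
    omega
  rw [h1, sum_insert (by simp [hab]), sum_insert (by simp)]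
  have h3 : ∑ c ∈ (univ.erase a).erase b, e (g (A + if c = a then 0 else 1)) (g (B + if c = b then 0 else 1)) =
      (Fintype.card α - 2) * e (g (A + 1)) (g (B + 1)) := by
    rw [sum_congr rfl (g := fun _ => e (g (A + 1)) (g (B + 1)))]
    · rw [sum_const, h2, smul_eq_mul]
    · intro c hc
      simp only [mem_erase, mem_univ, and_true] at hc
      simp [hc.1, hc.2]
  rw [h3]
  simp [hab, hab.symm, add_assoc]

theorem card_mul_N (g : ℕ → Prop) (x y : ι → α) (i₀ : ι) (h : x i₀ ≠ y i₀) :
    Fintype.card α * N g x y = ∑ z : ι → α, (e (g (mis x i₀ z)) (g (mis y i₀ z + 1)) +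
      e (g (mis x i₀ z + 1)) (g (mis y i₀ z)) +
        (Fintype.card α - 2) * e (g (mis x i₀ z + 1)) (g (mis y i₀ z + 1))) := by
  rw [N, ← sum_update i₀]
  apply sum_congr rfl
  intro z _
  rw [← sum_letters g _ _ h]
  apply sum_congr rfl
  intro c _
  rw [dist_update, dist_update]

theorem card_mul_N' (g : ℕ → Prop) (x y : ι → α) (i₀ : ι) (h : x i₀ ≠ y i₀) :
    Fintype.card α * N g x (update x i₀ (y i₀)) =
      ∑ z : ι → α, (e (g (mis x i₀ z)) (g (mis x i₀ z + 1)) + e (g (mis x i₀ z)) (g (mis x i₀ z + 1))) := by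
  rw [card_mul_N g x (update x i₀ (y i₀)) i₀ (by simpa using h)]
  apply sum_congr rfl
  intro z _
  rw [mis_congr (update x i₀ (y i₀)) x i₀ z (fun i hi => by simp [hi]), e_self, mul_zero, add_zero,
    e_comm (g (mis x i₀ z + 1))]

/-- The involution exchanging the letters of `x` and `y`. -/
theorem sum_swap (x y : ι → α) (i₀ : ι) (f : ℕ → ℕ → ℕ) :
    ∑ z : ι → α, f (mis x i₀ z) (mis y i₀ z) = ∑ z : ι → α, f (mis y i₀ z) (mis x i₀ z) := by
  classical
  let s : (ι → α) ≃ (ι → α) := Equiv.piCongrRight fun i => Equiv.swap (x i) (y i)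
  rw [← s.sum_comp]
  apply sum_congr rfl
  intro z _
  have h1 : mis x i₀ (s z) = mis y i₀ z := by
    rw [mis, mis]
    congr 1
    ext i
    simp only [mem_filter, mem_univ, true_and, s, Equiv.piCongrRight_apply, Pi.map_apply]
    have : Equiv.swap (x i) (y i) (z i) ≠ x i ↔ z i ≠ y i := by
      rw [not_iff_not]
      constructor
      · intro h
        have := congrArg (Equiv.swap (x i) (y i)) h
        simpa using this
      · intro h
        rw [h]; simp
    rw [this]
  have h2 : mis y i₀ (s z) = mis x i₀ z := by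
    rw [mis, mis]
    congr 1
    ext i
    simp only [mem_filter, mem_univ, true_and, s, Equiv.piCongrRight_apply, Pi.map_apply]
    have : Equiv.swap (x i) (y i) (z i) ≠ y i ↔ z i ≠ x i := by
      rw [not_iff_not]
      constructor
      · intro h
        have := congrArg (Equiv.swap (x i) (y i)) h
        simpa using this
      · intro h
        rw [h]; simp
    rw [this]
  rw [h1, h2]

theorem key (hα : 5 ≤ Fintype.card α) (g : ℕ → Prop) (x y : ι → α) (i₀ : ι) (h : x i₀ ≠ y i₀)
    (hN : N g x y = N g x (update x i₀ (y i₀))) (z : ι → α) :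
    g (mis x i₀ z + 1) ↔ g (mis y i₀ z + 1) := by
  have h1 := card_mul_N g x y i₀ h
  have h2 := card_mul_N' g x y i₀ h
  rw [hN, h2] at h1
  -- the two symmetric sums
  have h3 : ∑ z : ι → α, e (g (mis x i₀ z)) (g (mis x i₀ z + 1)) =
      ∑ z : ι → α, e (g (mis y i₀ z)) (g (mis y i₀ z + 1)) :=
    sum_swap x y i₀ (fun a _ => e (g a) (g (a + 1)))
  have h4 : ∑ z : ι → α, e (g (mis x i₀ z)) (g (mis x i₀ z + 1)) ≤
      ∑ z : ι → α, (e (g (mis x i₀ z)) (g (mis y i₀ z + 1)) +
        e (g (mis x i₀ z + 1)) (g (mis y i₀ z + 1))) := by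
    apply sum_le_sum
    intro z _
    have := e_tri (g (mis x i₀ z)) (g (mis y i₀ z + 1)) (g (mis x i₀ z + 1))
    rw [e_comm (g (mis y i₀ z + 1)) (g (mis x i₀ z + 1))] at this
    exact this
  have h5 : ∑ z : ι → α, e (g (mis y i₀ z)) (g (mis y i₀ z + 1)) ≤
      ∑ z : ι → α, (e (g (mis x i₀ z + 1)) (g (mis y i₀ z)) +
        e (g (mis x i₀ z + 1)) (g (mis y i₀ z + 1))) := by
    apply sum_le_sum
    intro z _
    have := e_tri (g (mis y i₀ z)) (g (mis x i₀ z + 1)) (g (mis y i₀ z + 1))
    rw [e_comm (g (mis y i₀ z)) (g (mis x i₀ z + 1))] at this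
    exact this
  rw [sum_add_distrib] at h4 h5 h1
  rw [sum_add_distrib, sum_add_distrib, ← mul_sum] at h1
  set E1 := ∑ z : ι → α, e (g (mis x i₀ z)) (g (mis x i₀ z + 1))
  set E2 := ∑ z : ι → α, e (g (mis x i₀ z)) (g (mis y i₀ z + 1))
  set E3 := ∑ z : ι → α, e (g (mis x i₀ z + 1)) (g (mis y i₀ z))
  have h6 : ∑ z : ι → α, e (g (mis x i₀ z + 1)) (g (mis y i₀ z + 1)) = 0 := by
    set E4 := ∑ z : ι → α, e (g (mis x i₀ z + 1)) (g (mis y i₀ z + 1))
    by_contra hne
    have hpos : 0 < E4 := Nat.pos_of_ne_zero hne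
    obtain ⟨m', hm'⟩ : ∃ m', Fintype.card α - 2 = m' + 3 := ⟨Fintype.card α - 5, by omega⟩
    rw [hm'] at h1
    have : 3 * E4 ≤ (m' + 3) * E4 := Nat.mul_le_mul_right _ (by omega)
    omega
  have h7 := (sum_eq_zero_iff.1 h6) z (mem_univ z)
  exact e_eq_zero h7

/-- Words with given numbers of mismatches. -/
theorem exists_word (hα : 3 ≤ Fintype.card α) (x y : ι → α) (i₀ : ι) (h : x i₀ ≠ y i₀) (a s : ℕ)
    (ha : a + 1 ≤ hammingDist x y) (hs : s + hammingDist x y ≤ Fintype.card ι) :
    ∃ z : ι → α, mis x i₀ z + 1 + a = hammingDist x y + s ∧ mis y i₀ z + 1 = hammingDist x y + s := by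
  classical
  set D : Finset ι := {i | x i ≠ y i} with hD
  have hDc : D.card = hammingDist x y := rfl
  have hi₀ : i₀ ∈ D := by simp [hD, h]
  obtain ⟨P, hPD, hPc⟩ := exists_subset_card_eq (s := D.erase i₀) (n := a)
    (by rw [card_erase_of_mem hi₀, hDc]; omega)
  obtain ⟨Q, hQD, hQc⟩ := exists_subset_card_eq (s := Dᶜ) (n := s)
    (by rw [card_compl, hDc]; omega)
  have ho : ∀ i, ∃ o : α, o ≠ x i ∧ o ≠ y i := by
    intro i
    have : ({x i, y i} : Finset α).card < (univ : Finset α).card :=
      lt_of_le_of_lt (card_le_two) (by rw [card_univ]; omega)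
    obtain ⟨o, -, ho⟩ := exists_mem_notMem_of_card_lt_card this
    simp only [mem_insert, mem_singleton, not_or] at ho
    exact ⟨o, ho⟩
  choose o ho1 ho2 using ho
  have hP : ∀ i ∈ P, i ≠ i₀ ∧ x i ≠ y i := by
    intro i hi
    have := hPD hi
    simp only [mem_erase, hD, mem_filter, mem_univ, true_and] at this
    exact this
  have hQ : ∀ i ∈ Q, x i = y i := by
    intro i hi
    have := hQD hi
    simp only [mem_compl, hD, mem_filter, mem_univ, true_and, not_not] at this
    exact this
  have hPQ : Disjoint (D.erase i₀) Q := by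
    rw [disjoint_left]
    intro i hi hi2
    exact (by simpa [hD] using (mem_erase.1 hi).2 : x i ≠ y i) (hQ i hi2)
  let z : ι → α := fun i => if i ∈ P then x i else if i ∈ D then o i else if i ∈ Q then o i else x i
  refine ⟨z, ?_, ?_⟩
  · have : ({i | i ≠ i₀ ∧ z i ≠ x i} : Finset ι) = ((D.erase i₀) \ P) ∪ Q := by
      ext i
      simp only [mem_filter, mem_univ, true_and, mem_union, mem_sdiff, mem_erase, z]
      by_cases hiP : i ∈ P
      · simp only [hiP, if_true, ne_eq, not_true_eq_false, and_false, false_or, false_iff]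
        intro hiQ
        exact (hP i hiP).2 (hQ i hiQ)
      · by_cases hiD : i ∈ D
        · simp only [hiP, hiD, if_true, if_false]
          have : i ∉ Q := fun hiQ => (by simpa [hD] using hiD : x i ≠ y i) (hQ i hiQ)
          simp [ho1 i, this]
        · have hne : i ≠ i₀ := fun hh => hiD (hh ▸ hi₀)
          by_cases hiQ : i ∈ Q
          · simp [hiP, hiD, hiQ, ho1 i, hne]
          · simp [hiP, hiD, hiQ]
    rw [mis, this, card_union_of_disjoint (disjoint_of_subset_left sdiff_subset hPQ),
      card_sdiff_of_subset hPD, card_erase_of_mem hi₀, hPc, hQc, hDc]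
    omega
  · have : ({i | i ≠ i₀ ∧ z i ≠ y i} : Finset ι) = (D.erase i₀) ∪ Q := by
      ext i
      simp only [mem_filter, mem_univ, true_and, mem_union, mem_erase, z]
      by_cases hiP : i ∈ P
      · have h1 := hP i hiP
        have h2 : i ∈ D := by simp [hD, h1.2]
        simp [hiP, h1.1, h1.2, h2]
      · by_cases hiD : i ∈ D
        · simp only [hiP, hiD, if_true, if_false]
          have : i ∉ Q := fun hiQ => (by simpa [hD] using hiD : x i ≠ y i) (hQ i hiQ)
          simp [ho2 i, this]
        · have hne : i ≠ i₀ := fun hh => hiD (hh ▸ hi₀)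
          by_cases hiQ : i ∈ Q
          · simp [hiP, hiD, hiQ, ho2 i, hne]
          · have : x i = y i := by simpa [hD] using hiD
            simp [hiP, hiD, hiQ, this]
    rw [mis, this, card_union_of_disjoint hPQ, card_erase_of_mem hi₀, hQc, hDc]
    have : 0 < hammingDist x y := by rw [← hDc]; exact card_pos.2 ⟨i₀, hi₀⟩
    omega

/-- **Fusion of distances.** -/
theorem core (hα : 5 ≤ Fintype.card α) (g : ℕ → Prop) (x y : ι → α) (i₀ : ι) (h : x i₀ ≠ y i₀)
    (ht : 2 ≤ hammingDist x y) (hN : N g x y = N g x (update x i₀ (y i₀))) (j : ℕ) (hj : 1 ≤ j)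
    (hj2 : j ≤ Fintype.card ι) : g j ↔ g (hammingDist x y) := by
  set t := hammingDist x y with ht'
  have hk : t ≤ Fintype.card ι := hammingDist_le_card_fintype
  -- the window `s`
  have hwin : ∀ s, s + t ≤ Fintype.card ι → ∀ a, a + 1 ≤ t → (g (t + s - a) ↔ g (t + s)) := by
    intro s hs a ha
    obtain ⟨z, hz1, hz2⟩ := exists_word (by omega) x y i₀ h a s ha hs
    have := key hα g x y i₀ h hN z
    rw [hz2, show mis x i₀ z + 1 = t + s - a by omega] at this
    exact this
  have hmain : ∀ s, s + t ≤ Fintype.card ι → (g (t + s) ↔ g t) := by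
    intro s
    induction s with
    | zero => intro _; rfl
    | succ s ih =>
      intro hs
      have h1 := ih (by omega)
      have h2 := hwin (s + 1) hs 1 (by omega)
      rw [show t + (s + 1) - 1 = t + s by omega] at h2
      exact h2.symm.trans h1
  rcases le_or_gt j t with hjt | hjt
  · have := hwin 0 (by omega) (t - j) (by omega)
    rwa [add_zero, show t - (t - j) = j by omega] at this
  · have := hmain (j - t) (by omega)
    rwa [show t + (j - t) = j by omega] at this

end Cfsg.Agent.H904.HamCount
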