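import Mathlib
import Cfsg.Agent.H904.HamCount
import Cfsg.Agent.H904.HamAut

/-!
# Overgroups of product action wreath products

`dichotomy`: a group `H` of permutations of `ι → α` that is transitive on the pairs at each Hamming distance
either consists of monomial maps or is 2-transitive.
-/

set_option autoImplicit false

namespace Cfsg.Agent.H904.HamGroup

open Finset Function Equiv

section general

variable {ι α : Type*}

/-- The monomial map. -/
def mono (π : Perm ι) (τ : ι → Perm α) : Perm (ι → α) where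
  toFun f i := τ i (f (π.symm i))
  invFun f i := (τ (π i)).symm (f (π i))
  left_inv f := by ext i; simp
  right_inv f := by ext i; simp

@[simp] theorem mono_apply (π : Perm ι) (τ : ι → Perm α) (f : ι → α) (i : ι) :
    mono π τ f i = τ i (f (π.symm i)) := rfl

theorem mono_mul (π π' : Perm ι) (τ τ' : ι → Perm α) :
    mono π τ * mono π' τ' = mono (π * π') (fun i => τ i * τ' (π.symm i)) := by
  ext f i
  simp [Perm.mul_def]

theorem mono_one : mono (1 : Perm ι) (1 : ι → Perm α) = 1 := rfl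

/-- The wreath product in product action. -/
def W (ι α : Type*) : Subgroup (Perm (ι → α)) where
  carrier := {σ | ∃ (π : Perm ι) (τ : ι → Perm α), ∀ (f : ι → α) (i : ι), σ f i = τ i (f (π.symm i))}
  mul_mem' := by
    rintro a b ⟨π, τ, h⟩ ⟨π', τ', h'⟩
    refine ⟨π * π', fun i => τ i * τ' (π.symm i), fun f i => ?_⟩
    rw [Perm.mul_apply, h, h']
    simp [Perm.mul_def]
  one_mem' := ⟨1, fun _ => 1, fun f i => rfl⟩
  inv_mem' := by
    rintro a ⟨π, τ, h⟩
    have ha : a = mono π τ := by ext f i; exact h f i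
    refine ⟨π⁻¹, fun i => (τ (π i))⁻¹, fun f i => ?_⟩
    rw [ha]
    rfl

theorem mem_W {σ : Perm (ι → α)} : σ ∈ W ι α ↔
    ∃ (π : Perm ι) (τ : ι → Perm α), ∀ (f : ι → α) (i : ι), σ f i = τ i (f (π.symm i)) := Iff.rfl

theorem mono_mem (π : Perm ι) (τ : ι → Perm α) : mono π τ ∈ W ι α := ⟨π, τ, fun _ _ => rfl⟩

theorem mem_W' {σ : Perm (ι → α)} : σ ∈ W ι α ↔ ∃ π τ, σ = mono π τ := by
  constructor
  · rintro ⟨π, τ, h⟩
    exact ⟨π, τ, by ext f i; exact h f i⟩
  · rintro ⟨π, τ, rfl⟩; exact mono_mem π τ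

end general

variable {ι α : Type*} [Fintype ι] [DecidableEq ι] [Fintype α] [DecidableEq α]

omit [DecidableEq ι] [Fintype α] in
theorem dist_mono (π : Perm ι) (τ : ι → Perm α) (x y : ι → α) :
    hammingDist (mono π τ x) (mono π τ y) = hammingDist x y := by
  rw [hammingDist, hammingDist]
  apply card_bij' (fun i _ => π.symm i) (fun i _ => π i)
  all_goals simp

/-- Transitive on pairs at every distance. -/
def DT (H : Subgroup (Perm (ι → α))) : Prop :=
  ∀ x y x' y' : ι → α, hammingDist x y = hammingDist x' y' → ∃ h ∈ H, h x = x' ∧ h y = y'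

/-- 2-transitive. -/
def Two {Ω : Type*} (H : Subgroup (Perm Ω)) : Prop :=
  ∀ x y x' y' : Ω, x ≠ y → x' ≠ y' → ∃ h ∈ H, h x = x' ∧ h y = y'

theorem N_invariant (g : ℕ → Prop) (h : Perm (ι → α))
    (hg : ∀ x y, g (hammingDist (h x) (h y)) ↔ g (hammingDist x y)) (x y : ι → α) :
    HamCount.N g (h x) (h y) = HamCount.N g x y := by
  rw [HamCount.N, HamCount.N, ← Equiv.sum_comp h]
  apply sum_congr rfl
  intro z _
  rw [propext (hg z x), propext (hg z y)]

/-- **The dichotomy.** -/
theorem dichotomy (hα : 5 ≤ Fintype.card α) (H : Subgroup (Perm (ι → α))) (hH : DT H) :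
    H ≤ W ι α ∨ Two H := by
  classical
  by_cases hp : ∀ h ∈ H, ∀ x y, hammingDist x y = 1 → hammingDist (h x) (h y) = 1
  · left
    intro σ hσ
    apply HamAut.exists_wreath σ (by omega)
    intro x y
    refine ⟨hp σ hσ x y, fun h1 => ?_⟩
    have := hp σ⁻¹ (inv_mem hσ) _ _ h1
    simpa using this
  · right
    push Not at hp
    obtain ⟨h₀, hh₀, x₀, y₀, h1, h2⟩ := hp
    set t := hammingDist (h₀ x₀) (h₀ y₀) with ht
    have ht0 : t ≠ 0 := by
      intro h0
      have : h₀ x₀ = h₀ y₀ := hammingDist_eq_zero.1 h0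
      rw [h₀.injective this] at h1
      simp at h1
    have ht2 : 2 ≤ t := by omega
    let g : ℕ → Prop := fun j => ∃ h ∈ H, ∃ x y : ι → α, hammingDist x y = 1 ∧ hammingDist (h x) (h y) = j
    have hginv : ∀ h ∈ H, ∀ x y, g (hammingDist x y) → g (hammingDist (h x) (h y)) := by
      rintro h hh x y ⟨h', hh', x', y', hd, hd'⟩
      obtain ⟨h'', hh'', e1, e2⟩ := hH _ _ _ _ hd'
      refine ⟨h * h'' * h', mul_mem (mul_mem hh hh'') hh', x', y', hd, ?_⟩
      rw [Perm.mul_apply, Perm.mul_apply, Perm.mul_apply, Perm.mul_apply, e1, e2]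
    have hginv' : ∀ h ∈ H, ∀ x y, g (hammingDist (h x) (h y)) ↔ g (hammingDist x y) := by
      intro h hh x y
      refine ⟨fun hg => ?_, hginv h hh x y⟩
      have := hginv h⁻¹ (inv_mem hh) _ _ hg
      simpa using this
    have hg1 : g 1 := ⟨1, one_mem _, x₀, y₀, h1, by simpa using h1⟩
    have hgt : g t := ⟨h₀, hh₀, x₀, y₀, h1, rfl⟩
    have hg0 : ¬ g 0 := by
      rintro ⟨h, -, x, y, hd, hd'⟩
      have := h.injective (hammingDist_eq_zero.1 hd')
      rw [this] at hd
      simp at hd
    -- pairs at distance `t`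
    set x₁ := h₀ x₀ with hx₁
    set y₁ := h₀ y₀ with hy₁
    obtain ⟨i₀, hi₀⟩ : ∃ i, x₁ i ≠ y₁ i := by
      by_contra hcon
      push Not at hcon
      exact ht0 (by rw [ht, hammingDist_eq_zero]; exact funext hcon)
    have hd1 : hammingDist x₁ (update x₁ i₀ (y₁ i₀)) = 1 :=
      HamAut.dist_eq_one_iff.2 ⟨i₀, HamAut.adj_update (Ne.symm hi₀)⟩
    obtain ⟨h₂, hh₂, e1, e2⟩ := hH x₀ y₀ x₁ (update x₁ i₀ (y₁ i₀)) (by rw [h1, hd1])
    have hN : HamCount.N g x₁ y₁ = HamCount.N g x₁ (update x₁ i₀ (y₁ i₀)) := by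
      rw [← e2]
      conv_rhs => rw [← e1]
      rw [N_invariant g h₂ (hginv' h₂ hh₂), hx₁, hy₁, N_invariant g h₀ (hginv' h₀ hh₀)]
    have hcore := HamCount.core hα g x₁ y₁ i₀ hi₀ (by rw [← ht]; exact ht2) hN
    rw [← ht] at hcore
    have hall : ∀ j, 1 ≤ j → j ≤ Fintype.card ι → g j := fun j hj hj' => (hcore j hj hj').2 hgt
    have hfin : ∀ x y : ι → α, x ≠ y → ∃ h ∈ H, h x₀ = x ∧ h y₀ = y := by
      intro x y hxy
      have hpos : 1 ≤ hammingDist x y := Nat.one_le_iff_ne_zero.2 (fun h => hxy (hammingDist_eq_zero.1 h))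
      obtain ⟨h, hh, x', y', hd, hd'⟩ := hall _ hpos hammingDist_le_card_fintype
      obtain ⟨h', hh', a1, a2⟩ := hH x₀ y₀ x' y' (by rw [h1, hd])
      obtain ⟨h'', hh'', b1, b2⟩ := hH _ _ _ _ hd'
      refine ⟨h'' * h * h', mul_mem (mul_mem hh'' hh) hh', ?_, ?_⟩
      · rw [Perm.mul_apply, Perm.mul_apply, a1, b1]
      · rw [Perm.mul_apply, Perm.mul_apply, a2, b2]
    intro x y x' y' hxy hxy'
    obtain ⟨h, hh, a1, a2⟩ := hfin x y hxy
    obtain ⟨h', hh', b1, b2⟩ := hfin x' y' hxy'
    refine ⟨h' * h⁻¹, mul_mem hh' (inv_mem hh), ?_, ?_⟩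
    · rw [Perm.mul_apply, ← a1]; simp [b1]
    · rw [Perm.mul_apply, ← a2]; simp [b2]

/-! ### Sufficient conditions for `DT` -/

theorem exists_perm_pair {β : Type*} [DecidableEq β] {a b a' b' : β} (h : a = b ↔ a' = b') :
    ∃ τ : Perm β, τ a = a' ∧ τ b = b' := by
  by_cases hab : a = b
  · subst hab
    have : a' = b' := h.1 rfl
    subst this
    exact ⟨swap a a', by simp, by simp⟩
  · have hab' : a' ≠ b' := fun h' => hab (h.2 h')
    -- first move `a`, then `b`
    refine ⟨swap (swap a a' b) b' * swap a a', ?_, ?_⟩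
    · rw [Perm.mul_apply, swap_apply_left]
      apply swap_apply_of_ne_of_ne
      · intro h1
        have := congrArg (swap a a') h1
        simp only [swap_apply_right, swap_apply_self] at this
        exact hab (by simpa using this)
      · exact hab'
    · rw [Perm.mul_apply, swap_apply_left]

theorem exists_even_pair {β : Type*} [Fintype β] [DecidableEq β] (hβ : 4 ≤ Fintype.card β)
    {a b a' b' : β} (h : a = b ↔ a' = b') :
    ∃ τ : Perm β, Perm.sign τ = 1 ∧ τ a = a' ∧ τ b = b' := by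
  obtain ⟨τ, h1, h2⟩ := exists_perm_pair h
  rcases Int.units_eq_one_or (Perm.sign τ) with hs | hs
  · exact ⟨τ, hs, h1, h2⟩
  · -- two more points
    have : ({a', b'} : Finset β).card + 1 < Fintype.card β := by
      have := card_le_two (a := a') (b := b'); omega
    have h3 : 1 < (({a', b'} : Finset β)ᶜ).card := by rw [card_compl]; omega
    obtain ⟨c, hc, d, hd, hcd⟩ := one_lt_card.1 h3
    simp only [mem_compl, mem_insert, mem_singleton, not_or] at hc hd
    refine ⟨swap c d * τ, ?_, ?_, ?_⟩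
    · rw [Perm.sign_mul, hs, Perm.sign_swap hcd]; rfl
    · rw [Perm.mul_apply, h1, swap_apply_of_ne_of_ne (Ne.symm hc.1) (Ne.symm hd.1)]
    · rw [Perm.mul_apply, h2, swap_apply_of_ne_of_ne (Ne.symm hc.2) (Ne.symm hd.2)]

/-- `DT` from even base permutations and homogeneity on the coordinates. -/
theorem dt_of (hα : 4 ≤ Fintype.card α) (H : Subgroup (Perm (ι → α)))
    (h1 : ∀ τ : ι → Perm α, (∀ i, Perm.sign (τ i) = 1) → mono 1 τ ∈ H)
    (h2 : ∀ D D' : Finset ι, D.card = D'.card → ∃ (π : Perm ι) (τ : ι → Perm α),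
      mono π τ ∈ H ∧ ∀ i, π i ∈ D' ↔ i ∈ D) : DT H := by
  intro x y x' y' hd
  obtain ⟨π, τ₀, hmem, hπ⟩ := h2 {i | x i ≠ y i} {i | x' i ≠ y' i} hd
  have hiff : ∀ i, (mono π τ₀ x i = mono π τ₀ y i ↔ x' i = y' i) := by
    intro i
    have := hπ (π.symm i)
    simp only [apply_symm_apply, mem_filter, mem_univ, true_and] at this
    rw [mono_apply, mono_apply, EmbeddingLike.apply_eq_iff_eq]
    tauto
  choose τ hs ha hb using fun i => exists_even_pair hα (hiff i)
  refine ⟨mono 1 τ * mono π τ₀, mul_mem (h1 τ hs) hmem, ?_, ?_⟩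
  · ext i; exact ha i
  · ext i; exact hb i

/-- Every homomorphism to `±1` kills the alternating group. -/
theorem alt_le_ker {β : Type*} [Fintype β] [DecidableEq β] (φ : Perm β →* ℤˣ) :
    alternatingGroup β ≤ φ.ker := by
  rw [← Perm.closure_three_cycles_eq_alternating, Subgroup.closure_le]
  intro c hc
  have h3 : c ^ 3 = 1 := by
    have : orderOf c = 3 := Perm.IsThreeCycle.orderOf hc
    rw [← this]; exact pow_orderOf_eq_one c
  change φ c = 1
  have h4 : φ c ^ 3 = 1 := by rw [← map_pow, h3, map_one]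
  have h5 : φ c ^ 2 = 1 := Int.units_sq _
  rw [pow_succ, h5, one_mul] at h4
  exact h4

/-- Base permutations as a homomorphism. -/
def base (i : ι) : Perm α →* Perm (ι → α) where
  toFun τ := mono 1 (Pi.mulSingle i τ)
  map_one' := by rw [Pi.mulSingle_one]; exact mono_one
  map_mul' a b := by
    rw [mono_mul, Pi.mulSingle_mul]
    rfl

/-- Coordinate permutations as a homomorphism. -/
def coord : Perm ι →* Perm (ι → α) where
  toFun π := mono π 1
  map_one' := mono_one
  map_mul' a b := by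
    rw [mono_mul]
    rfl

def baseAll : (ι → Perm α) →* Perm (ι → α) where
  toFun τ := mono 1 τ
  map_one' := mono_one
  map_mul' a b := by
    rw [mono_mul]
    rfl

theorem base_mem_alt (τ : ι → Perm α) (h : ∀ i, Perm.sign (τ i) = 1) :
    mono 1 τ ∈ alternatingGroup (ι → α) := by
  have key : ∀ s : Finset ι, mono 1 (fun i => if i ∈ s then τ i else 1) ∈ alternatingGroup (ι → α) := by
    intro s
    induction s using Finset.induction_on with
    | empty =>
      have : mono (1 : Perm ι) (fun i => if i ∈ (∅ : Finset ι) then τ i else 1) = 1 := by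
        ext f i
        simp
        rfl
      rw [this]; exact one_mem _
    | insert a s ha ih =>
      have h1 : mono (1 : Perm ι) (fun i => if i ∈ insert a s then τ i else 1) =
          base a (τ a) * mono 1 (fun i => if i ∈ s then τ i else 1) := by
        change _ = mono 1 (Pi.mulSingle a (τ a)) * mono 1 (fun i => if i ∈ s then τ i else 1)
        rw [mono_mul, one_mul]
        congr 1
        ext i b
        by_cases hi : i = a
        · subst hi
          change _ = (Pi.mulSingle i (τ i) : ι → Perm α) i ((if i ∈ s then τ i else 1) b)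
          simp [ha]
        · change _ = (Pi.mulSingle a (τ a) : ι → Perm α) i ((if i ∈ s then τ i else 1) b)
          rw [Pi.mulSingle_eq_of_ne hi]
          simp [hi]
      rw [h1]
      apply mul_mem _ ih
      exact alt_le_ker ((Perm.sign.comp (base (ι := ι) (α := α) a))) (show τ a ∈ _ from h a)
  have := key univ
  simpa using this

theorem coord_mem_alt (π : Perm ι) (h : Perm.sign π = 1) :
    mono π (1 : ι → Perm α) ∈ alternatingGroup (ι → α) := by
  have := alt_le_ker ((Perm.sign.comp (coord (ι := ι) (α := α)))) (show π ∈ _ from h)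
  exact this

theorem exists_perm_finset (D D' : Finset ι) (h : D.card = D'.card) :
    ∃ π : Perm ι, ∀ i, π i ∈ D' ↔ i ∈ D := by
  obtain ⟨e⟩ : Nonempty (D ≃ D') := ⟨Finset.equivOfCardEq h⟩
  refine ⟨e.extendSubtype, fun i => ?_⟩
  constructor
  · intro hi
    by_contra hi'
    exact (e.extendSubtype_not_mem i hi') hi
  · intro hi
    exact e.extendSubtype_mem i hi

/-- Even coordinate permutations are homogeneous if there are at least three coordinates. -/
theorem exists_even_finset (hι : 3 ≤ Fintype.card ι) (D D' : Finset ι) (h : D.card = D'.card) :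
    ∃ π : Perm ι, Perm.sign π = 1 ∧ ∀ i, π i ∈ D' ↔ i ∈ D := by
  obtain ⟨π, hπ⟩ := exists_perm_finset D D' h
  rcases Int.units_eq_one_or (Perm.sign π) with hs | hs
  · exact ⟨π, hs, hπ⟩
  · -- a transposition inside `D` or its complement
    obtain ⟨c, d, hcd, hmem⟩ : ∃ c d : ι, c ≠ d ∧ (c ∈ D ↔ d ∈ D) := by
      by_cases h2 : 1 < D.card
      · obtain ⟨c, hc, d, hd, hcd⟩ := one_lt_card.1 h2
        exact ⟨c, d, hcd, by simp [hc, hd]⟩
      · have h3 : 1 < (Dᶜ).card := by rw [card_compl]; omega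
        obtain ⟨c, hc, d, hd, hcd⟩ := one_lt_card.1 h3
        rw [mem_compl] at hc hd
        exact ⟨c, d, hcd, by simp [hc, hd]⟩
    refine ⟨π * swap c d, ?_, fun i => ?_⟩
    · rw [Perm.sign_mul, hs, Perm.sign_swap hcd]; rfl
    · rw [Perm.mul_apply, hπ]
      by_cases h1 : i = c
      · rw [h1, swap_apply_left]; exact hmem.symm
      · by_cases h2 : i = d
        · rw [h2, swap_apply_right]; exact hmem
        · rw [swap_apply_of_ne_of_ne h1 h2]

theorem sign_base_two (τ : Perm α) :
    Perm.sign (base (ι := Fin 2) 0 τ) = Perm.sign τ ^ Fintype.card α := by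
  have h := Perm.sign_eq_sign_of_equiv (base (ι := Fin 2) 0 τ) (prodCongrLeft fun _ : α => τ)
    (finTwoArrowEquiv α) (fun f => by
      ext
      · change (Pi.mulSingle (0 : Fin 2) τ : Fin 2 → Perm α) 0 (f 0) = _
        simp
      · change (Pi.mulSingle (0 : Fin 2) τ : Fin 2 → Perm α) 1 (f 1) = _
        simp)
  rw [h, Perm.sign_prodCongrLeft, prod_const, card_univ]

theorem sign_coord_two :
    Perm.sign (coord (ι := Fin 2) (α := α) (swap 0 1)) =
      (-1) ^ ((Fintype.card α ^ 2 - Fintype.card α) / 2) := by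
  have h2 : (coord (ι := Fin 2) (α := α) (swap 0 1)) ^ 2 = 1 := by
    rw [← map_pow, pow_two, swap_mul_self, map_one]
  rw [Perm.sign_of_pow_two_eq_one h2]
  have h3 : Fintype.card (fixedPoints ⇑(coord (ι := Fin 2) (α := α) (swap 0 1))) = Fintype.card α := by
    apply Fintype.card_congr
    refine ⟨fun f => f.1 0, fun a => ⟨fun _ => a, ?_⟩, fun f => ?_, fun a => rfl⟩
    · ext i; rfl
    · have := f.2
      apply Subtype.ext
      funext i
      have h0 := congrFun this 0
      change f.1 ((swap (0 : Fin 2) 1).symm 0) = f.1 0 at h0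
      rw [symm_swap, swap_apply_left] at h0
      fin_cases i
      · rfl
      · exact h0.symm
  rw [h3]
  simp

/-- `DT` for `W ∩ Alt`, two coordinates. -/
theorem dt_alt_two (hα : 4 ≤ Fintype.card α) (h4 : Fintype.card α % 4 ≠ 2)
    (H : Subgroup (Perm (Fin 2 → α)))
    (hW : W (Fin 2) α ⊓ alternatingGroup (Fin 2 → α) ≤ H) : DT H := by
  apply dt_of hα H (fun τ h => hW ⟨mono_mem 1 τ, base_mem_alt τ h⟩)
  intro D D' h
  -- an even element swapping the coordinates
  obtain ⟨τ, hτ⟩ : ∃ τ : Fin 2 → Perm α, mono (swap 0 1) τ ∈ H := by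
    rcases Int.units_eq_one_or (Perm.sign (coord (ι := Fin 2) (α := α) (swap 0 1))) with hs | hs
    · exact ⟨1, hW ⟨mono_mem _ _, hs⟩⟩
    · have hodd : Odd (Fintype.card α) := by
        by_contra hne
        rw [Nat.not_odd_iff_even] at hne
        rw [sign_coord_two] at hs
        obtain ⟨c, hc⟩ : 4 ∣ Fintype.card α := by
          obtain ⟨d, hd⟩ := hne
          omega
        have : (Fintype.card α ^ 2 - Fintype.card α) / 2 = 2 * (c * (4 * c - 1)) := by
          have e1 : Fintype.card α ^ 2 - Fintype.card α = 2 * (2 * (c * (4 * c - 1))) := by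
            rw [hc]
            obtain ⟨c', rfl⟩ : ∃ c', c = c' + 1 := ⟨c - 1, by omega⟩
            rw [show 4 * (c' + 1) - 1 = 4 * c' + 3 by omega]
            rw [Nat.sub_eq_iff_eq_add (by nlinarith)]
            ring
          rw [e1]; omega
        rw [this, pow_mul] at hs
        simp at hs
      obtain ⟨a, b, hab⟩ := Fintype.one_lt_card_iff.1 (show 1 < Fintype.card α by omega)
      have hb : Perm.sign (base (ι := Fin 2) 0 (swap a b)) = -1 := by
        rw [sign_base_two, Perm.sign_swap hab, hodd.neg_one_pow]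
      refine ⟨Pi.mulSingle 0 (swap a b), hW ⟨mono_mem _ _, ?_⟩⟩
      have : mono (swap (0 : Fin 2) 1) (Pi.mulSingle 0 (swap a b)) =
          base 0 (swap a b) * coord (swap 0 1) := by
        change _ = mono 1 (Pi.mulSingle 0 (swap a b)) * mono (swap 0 1) 1
        rw [mono_mul, one_mul]
        rfl
      rw [this]
      change Perm.sign _ = 1
      rw [Perm.sign_mul, hb, hs]; rfl
  by_cases hD : D = D'
  · subst hD
    exact ⟨1, 1, by rw [mono_one]; exact one_mem H, fun i => Iff.rfl⟩
  · refine ⟨swap 0 1, τ, hτ, ?_⟩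
    revert D D'
    decide

/-- `DT` for `W`. -/
theorem dt_W (hα : 4 ≤ Fintype.card α) (H : Subgroup (Perm (ι → α))) (hW : W ι α ≤ H) : DT H := by
  apply dt_of hα H (fun τ _ => hW (mono_mem 1 τ))
  intro D D' h
  obtain ⟨π, hπ⟩ := exists_perm_finset D D' h
  exact ⟨π, 1, hW (mono_mem π 1), hπ⟩

/-- `DT` for `W ∩ Alt`, at least three coordinates. -/
theorem dt_alt (hα : 4 ≤ Fintype.card α) (hι : 3 ≤ Fintype.card ι) (H : Subgroup (Perm (ι → α)))
    (hW : W ι α ⊓ alternatingGroup (ι → α) ≤ H) : DT H := by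
  apply dt_of hα H (fun τ h => hW ⟨mono_mem 1 τ, base_mem_alt τ h⟩)
  intro D D' h
  obtain ⟨π, hs, hπ⟩ := exists_even_finset hι D D' h
  exact ⟨π, 1, hW ⟨mono_mem π 1, coord_mem_alt π hs⟩, hπ⟩

end Cfsg.Agent.H904.HamGroup
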