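import Mathlib
import Cfsg.Agent.H904.HamArith
import Cfsg.Agent.H384.TwoTrans
import Cfsg.Agent.S0243
import Cfsg.Agent.S0280
import Cfsg.Agent.S0245
import Cfsg.Agent.S1163
import Cfsg.Agent.S1069

/-!
# The known 2-transitive groups do not contain `A_m^k` in degree `m ^ k`
-/

set_option autoImplicit false

namespace Cfsg.Agent.H904.HamKnown

open Finset Nat HamArith

theorem no_psu {q n m k N : ℕ} (hq : 3 ≤ q) (hn : n = q ^ 3 + 1) (hnm : n = m ^ k) (hm : 5 ≤ m)
    (hk : 2 ≤ k)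
    (hN : Nat.gcd 3 (q + 1) * ((q + 1) * N) = q ^ (3 * (3 - 1) / 2) *
      ∏ i ∈ Finset.range 3, (if Even i then q ^ (i + 1) + 1 else q ^ (i + 1) - 1))
    (hdvd : (m ! / 2) ^ k ∣ N) : False := by
  have e1 : q ^ (3 * (3 - 1) / 2) * ∏ i ∈ Finset.range 3, (if Even i then q ^ (i + 1) + 1 else q ^ (i + 1) - 1) =
      q ^ 3 * ((q + 1) * (q ^ 2 - 1) * (q ^ 3 + 1)) := by
    rw [prod_range_succ, prod_range_succ, prod_range_succ, prod_range_zero]
    norm_num
  rw [e1] at hN
  obtain ⟨r, hr, hpr, hdr, hrq⟩ := Lib.Zsigmondy.exists_primitive (a := q) (n := 6) (by omega) (by norm_num)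
    (fun h => absurd h (by norm_num)) (by omega)
  have hr2 : r ≠ 2 := by
    rintro rfl
    have := Nat.le_of_dvd (by norm_num) hdr
    omega
  have h2 : ¬ r ∣ q ^ 2 - 1 := fun h => by
    have := Nat.le_of_dvd (by norm_num) ((hpr 2).1 h); omega
  have h3 : ¬ r ∣ q ^ 3 - 1 := fun h => by
    have := Nat.le_of_dvd (by norm_num) ((hpr 3).1 h); omega
  have h1 : ¬ r ∣ q + 1 := fun h => h2 (by
    have : q ^ 2 - 1 = (q + 1) * (q - 1) := by rw [← Nat.sq_sub_sq]
    rw [this]; exact Dvd.dvd.mul_right h _)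
  have hrn : r ∣ n := by
    have h6 : r ∣ (q ^ 3 + 1) * (q ^ 3 - 1) := by
      have : q ^ 6 - 1 = (q ^ 3 + 1) * (q ^ 3 - 1) := by
        rw [← Nat.sq_sub_sq, one_pow, ← pow_mul]
      rw [← this]; exact (hpr 6).2 dvd_rfl
    rcases hr.dvd_mul.1 h6 with h | h
    · rw [hn]; exact h
    · exact absurd h h3
  have hrm : r ∣ m := hr.dvd_of_dvd_pow (by rw [← hnm]; exact hrn)
  have hq2 : 0 < q ^ 2 - 1 := by
    have : 3 ^ 2 ≤ q ^ 2 := Nat.pow_le_pow_left hq 2
    omega
  have hrhs : q ^ 3 * ((q + 1) * (q ^ 2 - 1) * (q ^ 3 + 1)) ≠ 0 := by positivity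
  have hN0 : N ≠ 0 := by
    rintro rfl
    rw [mul_zero, mul_zero] at hN
    exact hrhs hN.symm
  have hv : N.factorization r ≤ k * m.factorization r := by
    have h4 : N ∣ q ^ 3 * ((q + 1) * (q ^ 2 - 1) * (q ^ 3 + 1)) := by
      rw [← hN]
      exact Dvd.intro_left _ (by rw [← mul_assoc])
    have h5 := (Nat.factorization_le_iff_dvd hN0 hrhs).2 h4 r
    rw [Nat.factorization_mul (by positivity) (by positivity),
      Nat.factorization_mul (by positivity) (by positivity),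
      Nat.factorization_mul (by positivity) (by positivity)] at h5
    simp only [Finsupp.add_apply] at h5
    rw [Nat.factorization_eq_zero_of_not_dvd (n := q ^ 3) (fun h => hrq (hr.dvd_of_dvd_pow h)),
      Nat.factorization_eq_zero_of_not_dvd h1, Nat.factorization_eq_zero_of_not_dvd h2, ← hn, hnm,
      Nat.factorization_pow, Finsupp.smul_apply, smul_eq_mul] at h5
    omega
  have hmr := eq_prime hm (by omega) hN0 hr hr2 hrm hdvd hv
  subst hmr
  have h6 : q + 1 ∣ m ^ k := by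
    rw [← hnm, hn]
    have : q ^ 3 + 1 = (q + 1) * (q ^ 2 - q + 1) := by
      obtain ⟨c, rfl⟩ : ∃ c, q = c + 1 := ⟨q - 1, by omega⟩
      have : (c + 1) ^ 2 - (c + 1) = c * (c + 1) := by
        rw [pow_two, ← Nat.sub_one_mul]; simp
      rw [this]; ring
    rw [this]; exact dvd_mul_right _ _
  obtain ⟨j, -, hj⟩ := (Nat.dvd_prime_pow hr).1 h6
  have hj0 : j ≠ 0 := by rintro rfl; rw [pow_zero] at hj; omega
  exact h1 (by rw [hj]; exact dvd_pow_self m hj0)

theorem odd_geom (b k : ℕ) (hb : b % 2 = 1) (hk : k % 2 = 1) : (∑ i ∈ range k, b ^ i) % 2 = 1 := by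
  have : ∀ k, (∑ i ∈ range k, b ^ i) % 2 = k % 2 := by
    intro k
    induction k with
    | zero => simp
    | succ k ih =>
      rw [sum_range_succ, Nat.add_mod, ih, Nat.pow_mod, hb, one_pow]
      omega
  rw [this, hk]

/-- `2^j + 1 = b^k`. -/
theorem pow_two_add_one {j b k : ℕ} (hj : 3 ≤ j) (hk : 2 ≤ k) (h : 2 ^ j + 1 = b ^ k) : j = 3 ∧ b = 3 ∧ k = 2 := by
  have h8 : 8 ≤ 2 ^ j := by
    calc 8 = 2 ^ 3 := by norm_num
      _ ≤ 2 ^ j := Nat.pow_le_pow_right (by norm_num) hj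
  have hb2 : b % 2 = 1 := by
    by_contra hcon
    have : b % 2 = 0 := by omega
    have h1 : b ^ k % 2 = 0 := by rw [Nat.pow_mod, this, zero_pow (by omega), Nat.zero_mod]
    have h2 : 2 ^ j % 2 = 0 := by rw [Nat.pow_mod, Nat.mod_self, zero_pow (by omega), Nat.zero_mod]
    omega
  have hb3 : 3 ≤ b := by
    by_contra hcon
    have : b = 1 := by omega
    rw [this, one_pow] at h
    omega
  rcases Nat.mod_two_eq_zero_or_one k with hk2 | hk2
  · obtain ⟨l, rfl⟩ : 2 ∣ k := Nat.dvd_of_mod_eq_zero hk2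
    have e : (b ^ l + 1) * (b ^ l - 1) = 2 ^ j := by
      rw [← Nat.sq_sub_sq, ← pow_mul, mul_comm l, ← h]; simp
    have hl : 1 ≤ l := by omega
    have hbl : 3 ≤ b ^ l := by
      calc 3 ≤ b := hb3
        _ = b ^ 1 := (pow_one b).symm
        _ ≤ b ^ l := Nat.pow_le_pow_right (by omega) hl
    obtain ⟨u, -, hu⟩ := (Nat.dvd_prime_pow Nat.prime_two).1 (Dvd.intro _ e)
    obtain ⟨v, -, hv⟩ := (Nat.dvd_prime_pow Nat.prime_two).1 (Dvd.intro_left _ e)
    have hv1 : v = 1 := by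
      by_contra hcon
      have hv0 : v ≠ 0 := by rintro rfl; rw [pow_zero] at hv; omega
      have h4 : 4 ∣ 2 ^ v := by
        have := pow_dvd_pow 2 (show 2 ≤ v by omega); norm_num at this; exact this
      have hu0 : 2 ≤ u := by
        by_contra hc
        have : 2 ^ u ≤ 2 ^ 1 := Nat.pow_le_pow_right (by norm_num) (by omega)
        omega
      have h5 : 4 ∣ 2 ^ u := by
        have := pow_dvd_pow 2 hu0; norm_num at this; exact this
      omega
    subst hv1
    have hbl3 : b ^ l = 3 := by omega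
    have hl1 : l = 1 := by
      by_contra hcon
      have : 3 ^ 2 ≤ b ^ l := (Nat.pow_le_pow_left hb3 2).trans (Nat.pow_le_pow_right (by omega) (by omega))
      omega
    subst hl1
    rw [pow_one] at hbl3
    subst hbl3
    refine ⟨?_, rfl, rfl⟩
    have : 2 ^ j = 2 ^ 3 := by omega
    exact Nat.pow_right_injective (le_refl 2) this
  · exfalso
    have e : (∑ i ∈ range k, b ^ i) * (b - 1) = 2 ^ j := by
      have := Nat.geomSum_eq (m := b) (by omega) k
      have hd : (b - 1) ∣ b ^ k - 1 := by simpa using Nat.sub_dvd_pow_sub_pow b 1 k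
      rw [this, Nat.div_mul_cancel hd, ← h]; simp
    obtain ⟨u, -, hu⟩ := (Nat.dvd_prime_pow Nat.prime_two).1 (Dvd.intro _ e)
    have hodd := odd_geom b k hb2 hk2
    have hu0 : u = 0 := by
      by_contra hcon
      rw [hu, Nat.pow_mod, Nat.mod_self, zero_pow hcon] at hodd
      simp at hodd
    rw [hu0, pow_zero] at hu
    have : ∑ i ∈ range 2, b ^ i ≤ ∑ i ∈ range k, b ^ i :=
      sum_le_sum_of_subset (range_subset_range.2 hk)
    rw [hu] at this
    simp [sum_range_succ] at this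
    omega

/-- `2^j - 1 = b^k` has no solution. -/
theorem pow_two_sub_one {j b k : ℕ} (hj : 3 ≤ j) (hk : 2 ≤ k) (h : 2 ^ j - 1 = b ^ k) : False := by
  have h8 : 8 ∣ 2 ^ j := by
    have := pow_dvd_pow 2 hj; norm_num at this; exact this
  have h8' : 8 ≤ 2 ^ j := Nat.le_of_dvd (by positivity) h8
  have hb2 : b % 2 = 1 := by
    by_contra hcon
    have : b % 2 = 0 := by omega
    have h1 : b ^ k % 2 = 0 := by rw [Nat.pow_mod, this, zero_pow (by omega), Nat.zero_mod]
    omega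
  rcases Nat.mod_two_eq_zero_or_one k with hk2 | hk2
  · obtain ⟨l, rfl⟩ : 2 ∣ k := Nat.dvd_of_mod_eq_zero hk2
    have h1 : (b ^ l) % 2 = 1 := by rw [Nat.pow_mod, hb2, one_pow, Nat.one_mod]
    have h2 : (b ^ l) ^ 2 % 8 = 1 := by
      have : b ^ l % 8 = 1 ∨ b ^ l % 8 = 3 ∨ b ^ l % 8 = 5 ∨ b ^ l % 8 = 7 := by omega
      rcases this with h | h | h | h <;> rw [Nat.pow_mod, h] <;> norm_num
    rw [← pow_mul, mul_comm l, ← h] at h2
    omega
  · have hb3 : 2 ≤ b := by
      by_contra hcon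
      have : b = 1 := by omega
      rw [this, one_pow] at h
      omega
    -- `b ^ k + 1 = (b + 1) * odd`
    have hdvd : b + 1 ∣ b ^ k + 1 := by
      have := Odd.nat_add_dvd_pow_add_pow b 1 (Nat.odd_iff.2 hk2)
      rwa [one_pow] at this
    obtain ⟨c, hc⟩ := hdvd
    have hc2 : c % 2 = 1 := by
      -- modulo `(b+1)`-adic: `c = ∑ (-b)^i`, count parity via `b^k + 1 = (b+1) c`
      have key : ∀ l, ∃ c, b ^ (2 * l + 1) + 1 = (b + 1) * c ∧ c % 2 = 1 := by
        intro l
        induction l with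
        | zero => exact ⟨1, by ring, rfl⟩
        | succ l ih =>
          obtain ⟨c, h1, h2⟩ := ih
          -- b^(2l+3) + 1 = b^2 (b^(2l+1) + 1) - (b^2 - 1) = (b+1)(b^2 c - (b-1))
          have hc1 : 1 ≤ c := by omega
          have h3 : b - 1 ≤ b ^ 2 * c :=
            (Nat.sub_le b 1).trans ((Nat.le_self_pow two_ne_zero b).trans (Nat.le_mul_of_pos_right _ hc1))
          refine ⟨b ^ 2 * c - (b - 1), ?_, ?_⟩
          · obtain ⟨a, rfl⟩ : ∃ a, b = a + 1 := ⟨b - 1, by omega⟩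
            rw [Nat.add_sub_cancel] at h3 ⊢
            obtain ⟨t, ht⟩ : ∃ t, (a + 1) ^ 2 * c = a + t := ⟨(a + 1) ^ 2 * c - a, by omega⟩
            have h4 : (a + 1) ^ 2 * c - a = t := by omega
            rw [h4]
            have h5 : (a + 1) ^ (2 * (l + 1) + 1) + (a + 1) ^ 2 = (a + 1 + 1) * (a + t) := by
              rw [← ht]
              calc (a + 1) ^ (2 * (l + 1) + 1) + (a + 1) ^ 2 = (a + 1) ^ 2 * ((a + 1) ^ (2 * l + 1) + 1) := by ring
                _ = _ := by rw [h1]; ring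
            have h6 : (a + 1 + 1) * (a + t) = (a + 1 + 1) * t + (a + 1) ^ 2 - 1 := by
              have : (a + 1 + 1) * (a + t) + 1 = (a + 1 + 1) * t + (a + 1) ^ 2 := by ring
              omega
            have h7 : 1 ≤ (a + 1) ^ 2 := Nat.one_le_pow _ _ (by omega)
            omega
          · have h4 : (b ^ 2 * c) % 2 = 1 := by rw [Nat.mul_mod, Nat.pow_mod, hb2, h2]
            omega
      obtain ⟨c', h1, h2⟩ := key (k / 2)
      rw [show 2 * (k / 2) + 1 = k by omega, hc] at h1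
      have := Nat.eq_of_mul_eq_mul_left (show 0 < b + 1 by omega) h1
      rw [this]; exact h2
    have h9 : c ∣ 2 ^ j := by
      have : 2 ^ j = (b + 1) * c := by omega
      rw [this]; exact dvd_mul_left _ _
    obtain ⟨u, -, hu⟩ := (Nat.dvd_prime_pow Nat.prime_two).1 h9
    have hu0 : u = 0 := by
      by_contra hcon
      rw [hu, Nat.pow_mod, Nat.mod_self, zero_pow hcon] at hc2
      simp at hc2
    rw [hu0, pow_zero] at hu
    rw [hu, mul_one] at hc
    have : b ^ 2 ≤ b ^ k := Nat.pow_le_pow_right (by omega) hk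
    nlinarith

theorem no_sp {j m k n N : ℕ} (hj : 3 ≤ j) (hn : n = 2 ^ (j - 1) * (2 ^ j + 1) ∨ n = 2 ^ (j - 1) * (2 ^ j - 1))
    (hnm : n = m ^ k) (hm : 5 ≤ m) (hk : 2 ≤ k) (hN0 : j = 3 → N ∣ 1451520)
    (hdvd : (m ! / 2) ^ k ∣ N) : False := by
  have hpar : ∀ c, c % 2 = 1 → Nat.Coprime (2 ^ (j - 1)) c := by
    intro c hc
    exact (Nat.coprime_two_left.2 (Nat.odd_iff.2 hc)).pow_left _
  have h2j : 2 ^ j % 2 = 0 := by rw [Nat.pow_mod, Nat.mod_self, zero_pow (by omega), Nat.zero_mod]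
  have h8' : 2 ^ 3 ≤ 2 ^ j := Nat.pow_le_pow_right (by norm_num) hj
  rcases hn with hn | hn
  · have hco : Nat.Coprime (2 ^ (j - 1)) (2 ^ j + 1) := hpar _ (by omega)
    obtain ⟨b, hb⟩ := exists_eq_pow_of_mul_eq_pow (Nat.isUnit_iff.2 (show Nat.gcd _ _ = 1 from hco.symm)) (show (2 ^ j + 1) * 2 ^ (j - 1) = m ^ k by rw [← hnm, hn]; ring)
    obtain ⟨rfl, rfl, rfl⟩ := pow_two_add_one hj hk hb
    have hm6 : m = 6 := by
      have : m ^ 2 = 36 := by rw [← hnm, hn]; norm_num
      nlinarith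
    subst hm6
    have h1 := hdvd.trans (hN0 rfl)
    revert h1
    decide
  · have hco : Nat.Coprime (2 ^ (j - 1)) (2 ^ j - 1) := hpar _ (by omega)
    obtain ⟨b, hb⟩ := exists_eq_pow_of_mul_eq_pow (Nat.isUnit_iff.2 (show Nat.gcd _ _ = 1 from hco.symm)) (show (2 ^ j - 1) * 2 ^ (j - 1) = m ^ k by rw [← hnm, hn]; ring)
    exact pow_two_sub_one hj hk hb

open Cfsg.Agent.H384.TwoTrans in
/-- **The known 2-transitive groups of degree `m ^ k` whose order is divisible by `|A_m| ^ k`.** -/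
theorem iso_alt {T : Type*} [Group T] [Finite T] {m k n : ℕ} (hm : 5 ≤ m) (hk : 2 ≤ k)
    (hnm : n = m ^ k) (hdvd : (m ! / 2) ^ k ∣ Nat.card T) (h : Known2 T n) :
    Nonempty (T ≃* ↥(alternatingGroup (Fin n))) := by
  cases h with
  | alt _ _ e => exact e
  | psl F d _ hd hd2 e hn =>
    exfalso
    obtain ⟨e⟩ := e
    rw [Nat.card_congr e.toEquiv] at hdvd
    exact no_psl (Fintype.isPrimePow_card_of_field) hd hd2 hn hnm hm hk
      (S0243.result (F := F) rfl d hd) hdvd
  | sp F j _ hF hj e hn =>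
    exfalso
    obtain ⟨e⟩ := e
    rw [Nat.card_congr e.toEquiv] at hdvd
    refine no_sp hj hn hnm hm hk (fun h3 => ?_) hdvd
    subst h3
    have h1 : Nat.card (Cfsg.PSp 3 F) ∣ Nat.card (Matrix.symplecticGroup (Fin 3) F) :=
      Subgroup.card_quotient_dvd_card _
    rw [S0245.result (F := F) hF 3] at h1
    refine h1.trans (dvd_of_eq ?_)
    decide
  | psu F q _ hq hF e hn =>
    exfalso
    obtain ⟨e⟩ := e
    rw [Nat.card_congr e.toEquiv] at hdvd
    exact no_psu hq hn hnm hm hk (S0280.result hF 3 (by norm_num)) hdvd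
  | sz F a _ ha hF e hn =>
    exfalso
    obtain ⟨e⟩ := e
    have h3 : 3 ∣ Nat.card T := by
      refine Dvd.dvd.trans (dvd_pow ?_ (by omega : k ≠ 0)) hdvd
      have h10 : 120 ∣ m ! := Nat.factorial_dvd_factorial hm
      omega
    rw [Nat.card_congr e.toEquiv, (S1163.result ha hF).1] at h3
    have h4 : 2 ^ (2 * a + 1) % 3 = 2 := by
      rw [pow_succ, pow_mul, Nat.mul_mod, Nat.pow_mod]; norm_num
    have h5 : (2 ^ (2 * a + 1)) ^ 2 % 3 = 1 := by rw [Nat.pow_mod, h4]
    have hpos : 1 ≤ 2 ^ (2 * a + 1) := Nat.one_le_two_pow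
    rw [Nat.prime_three.dvd_mul, Nat.prime_three.dvd_mul] at h3
    omega
  | ree K a _ ha hK e hn =>
    exfalso
    obtain ⟨e⟩ := e
    have h3 : 5 ∣ Nat.card T := by
      refine Dvd.dvd.trans (dvd_pow ?_ (by omega : k ≠ 0)) hdvd
      have h10 : 120 ∣ m ! := Nat.factorial_dvd_factorial hm
      omega
    rw [Nat.card_congr e.toEquiv, S1069.result hK] at h3
    set q := 3 ^ (2 * a + 1) with hq
    have h4 : q % 5 = 3 ∨ q % 5 = 2 := by
      rw [hq, pow_succ, pow_mul, Nat.mul_mod, Nat.pow_mod]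
      norm_num
      rcases Nat.even_or_odd a with h | h
      · obtain ⟨c, rfl⟩ := h
        left
        rw [← two_mul, pow_mul, Nat.mul_mod, Nat.pow_mod]; norm_num
      · obtain ⟨c, rfl⟩ := h
        right
        rw [pow_succ, pow_mul, Nat.mul_mod, Nat.mul_mod (((4 ^ 2) ^ c)), Nat.pow_mod]; norm_num
    have h5 : (q ^ 3 + 1) % 5 ≠ 0 := by
      rcases h4 with h | h <;> rw [Nat.add_mod, Nat.pow_mod, h] <;> norm_num
    have h6 : q ^ 3 % 5 ≠ 0 := by
      rcases h4 with h | h <;> rw [Nat.pow_mod, h] <;> norm_num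
    rw [Nat.prime_five.dvd_mul, Nat.prime_five.dvd_mul] at h3
    omega
  | psl2_8 => exact absurd hnm.symm (pow_ne_of_lt hm hk (by norm_num) (by decide))
  | psl2_9 => exact absurd hnm.symm (pow_ne_of_lt hm hk (by norm_num) (by decide))
  | psl2_11 => exact absurd hnm.symm (pow_ne_of_lt hm hk (by norm_num) (by decide))
  | psl4_2 => exact absurd hnm.symm (pow_ne_of_lt hm hk (by norm_num) (by decide))
  | a7 => exact absurd hnm.symm (pow_ne_of_lt hm hk (by norm_num) (by decide))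
  | m11 => exact absurd hnm.symm (pow_ne_of_lt hm hk (by norm_num) (by decide))
  | m11' => exact absurd hnm.symm (pow_ne_of_lt hm hk (by norm_num) (by decide))
  | m12 => exact absurd hnm.symm (pow_ne_of_lt hm hk (by norm_num) (by decide))
  | m22 => exact absurd hnm.symm (pow_ne_of_lt hm hk (by norm_num) (by decide))
  | m23 => exact absurd hnm.symm (pow_ne_of_lt hm hk (by norm_num) (by decide))
  | m24 => exact absurd hnm.symm (pow_ne_of_lt hm hk (by norm_num) (by decide))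
  | hs => exact absurd hnm.symm (pow_ne_of_lt hm hk (by norm_num) (by decide))
  | co3 => exact absurd hnm.symm (pow_ne_of_lt hm hk (by norm_num) (by decide))

end Cfsg.Agent.H904.HamKnown
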