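import Mathlib
import Cfsg.Agent.H904.HamGroup
import Cfsg.Agent.H904.HamKnown
import Cfsg.Agent.H384.TwoTransRed
import Cfsg.Agent.Schreier.Basic

/-!
# 2-transitive groups containing `A_m^k` in product action
-/

set_option autoImplicit false

namespace Cfsg.Agent.H904.HamTwo

open MulAction Cfsg.Agent.H904.HamGroup Cfsg.Agent.H384.TwoTrans Nat

section affine

variable {G Ω : Type*} [Group G] [MulAction G Ω]

/-- The fixed points of an element with a fixed point, in the presence of a regular normal subgroup. -/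
theorem card_fixed (N : Subgroup G) (hN : N.Normal) (htr : ∀ x y : Ω, ∃ n ∈ N, n • x = y)
    (hfree : ∀ x : Ω, ∀ n ∈ N, n • x = x → n = 1) (g : G) (ω₀ : Ω) (hg : g • ω₀ = ω₀) :
    Nat.card {ω : Ω // g • ω = ω} = Nat.card ↥(N ⊓ Subgroup.centralizer ({g} : Set G)) := by
  symm
  refine Nat.card_congr (Equiv.ofBijective (fun n => ⟨(n : G) • ω₀, ?_⟩) ⟨?_, ?_⟩)
  · have h1 : g * n = n * g := (Subgroup.mem_centralizer_singleton_iff.1 n.2.2).symm ▸ rfl
    rw [← mul_smul, h1, mul_smul, hg]
  · intro n n' h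
    have h1 : (n : G) • ω₀ = (n' : G) • ω₀ := congrArg Subtype.val h
    have h2 : (n' : G)⁻¹ * n = 1 := by
      apply hfree ω₀ _ (mul_mem (inv_mem n'.2.1) n.2.1)
      rw [mul_smul, h1, inv_smul_smul]
    apply Subtype.ext
    exact (inv_mul_eq_one.1 h2).symm
  · rintro ⟨ω, hω⟩
    obtain ⟨n, hn, rfl⟩ := htr ω₀ ω
    refine ⟨⟨n, hn, ?_⟩, rfl⟩
    change n ∈ Subgroup.centralizer {g}
    rw [Subgroup.mem_centralizer_singleton_iff]
    have h1 : n⁻¹ * (g * n * g⁻¹) = 1 := by
      apply hfree ω₀ _ (mul_mem (inv_mem hn) (hN.conj_mem n hn g))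
      rw [mul_smul, mul_smul, mul_smul, inv_smul_eq_iff.2 hg.symm, hω, inv_smul_smul]
    have h2 : g * n * g⁻¹ = n := (inv_mul_eq_one.1 h1).symm
    exact (mul_inv_eq_iff_eq_mul.1 h2).symm

end affine

section main

variable {ι α : Type*} [Fintype ι] [DecidableEq ι] [Fintype α] [DecidableEq α]

omit [Fintype ι] [Fintype α] [DecidableEq α] in
/-- The number of words with prescribed letters at one place. -/
theorem card_place (i₀ : ι) (P : α → Prop) [DecidablePred P] :
    Nat.card {f : ι → α // P (f i₀)} = Nat.card {a : α // P a} * Nat.card ({j : ι // j ≠ i₀} → α) := by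
  rw [← Nat.card_prod]
  refine Nat.card_congr ?_
  refine ((Equiv.funSplitAt i₀ α).subtypeEquiv (q := fun p => P p.1) (fun f => by simp)).trans ?_
  exact { toFun := fun p => (⟨p.1.1, p.2⟩, p.1.2)
          invFun := fun p => ⟨(p.1.1, p.2), p.1.2⟩
          left_inv := fun p => rfl
          right_inv := fun p => rfl }

theorem arith {p a c : ℕ} (hp : p.Prime) (h5 : 5 ≤ p ^ a) (h : p ^ c + 3 = p ^ a) : False := by
  have hc : c ≠ 0 := by
    rintro rfl
    rw [pow_zero] at h
    omega
  have ha : a ≠ 0 := by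
    rintro rfl
    rw [pow_zero] at h5
    omega
  have h1 : p ∣ 3 := by
    have h2 : p ∣ p ^ c + 3 := by rw [h]; exact dvd_pow_self p ha
    exact (Nat.dvd_add_right (dvd_pow_self p hc)).1 h2
  have h3 : p = 3 := (Nat.prime_dvd_prime_iff_eq hp Nat.prime_three).1 h1
  subst h3
  have hc1 : c ≠ 1 := by
    rintro rfl
    have ha2 : 2 ≤ a := by
      by_contra hcon
      have : a = 1 := by omega
      subst this
      norm_num at h
    have : 3 ^ 2 ∣ 3 ^ a := pow_dvd_pow 3 ha2
    omega
  have hc2 : 3 ^ 2 ∣ 3 ^ c := pow_dvd_pow 3 (by omega)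
  have hc3 : 3 ^ 2 ≤ 3 ^ c := Nat.le_of_dvd (by positivity) hc2
  have ha2 : 2 ≤ a := by
    by_contra hcon
    have : a = 1 := by omega
    subst this
    norm_num at h
  have ha3 : 3 ^ 2 ∣ 3 ^ a := pow_dvd_pow 3 ha2
  omega

/-- No regular elementary abelian normal subgroup. -/
theorem no_affine (hα : 5 ≤ Fintype.card α) (i₀ : ι) (H : Subgroup (Equiv.Perm (ι → α)))
    (hbase : ∀ τ : ι → Equiv.Perm α, (∀ i, Equiv.Perm.sign (τ i) = 1) → mono 1 τ ∈ H)
    (N : Subgroup ↥H) (hN : N.Normal) (p : ℕ) (hp : p.Prime) (hNp : ∀ n ∈ N, n ^ p = 1)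
    (htr : ∀ x y : ι → α, ∃ n ∈ N, n • x = y)
    (hfree : ∀ x : ι → α, ∀ n ∈ N, n • x = x → n = 1) : False := by
  classical
  have hfact : Fact p.Prime := ⟨hp⟩
  have hNP : IsPGroup p ↥N := fun n => ⟨1, by
    apply Subtype.ext
    rw [pow_one]
    exact hNp n n.2⟩
  -- the degree
  have hne : Nonempty α := Fintype.card_pos_iff.1 (by omega)
  let ω₁ : ι → α := fun _ => Classical.arbitrary α
  have hcardΩ : Nat.card (ι → α) = Nat.card ↥N := by
    have := card_fixed N hN htr hfree 1 ω₁ (one_smul _ _)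
    have h1 : N ⊓ Subgroup.centralizer ({1} : Set ↥H) = N := by
      apply inf_eq_left.2
      intro n _
      rw [Subgroup.mem_centralizer_singleton_iff]; simp
    rw [h1] at this
    rw [← this]
    exact Nat.card_congr (Equiv.subtypeUnivEquiv (fun ω => one_smul _ ω)).symm
  obtain ⟨e, he⟩ := IsPGroup.iff_card.1 hNP
  -- a three-cycle
  obtain ⟨s, hs⟩ : ∃ s : Finset α, s.card = 3 := by
    obtain ⟨s, -, hs⟩ := Finset.exists_subset_card_eq (s := (Finset.univ : Finset α)) (n := 3)
      (by rw [Finset.card_univ]; omega)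
    exact ⟨s, hs⟩
  obtain ⟨x, y, z, hxy, hxz, hyz, rfl⟩ := Finset.card_eq_three.1 hs
  let c : Equiv.Perm α := Equiv.swap x y * Equiv.swap y z
  have hc1 : Equiv.Perm.sign c = 1 := by
    rw [Equiv.Perm.sign_mul, Equiv.Perm.sign_swap hxy, Equiv.Perm.sign_swap hyz]; rfl
  have hfixc : ∀ a, c a = a ↔ a ∉ ({x, y, z} : Finset α) := by
    intro a
    simp only [c, Equiv.Perm.mul_apply, Finset.mem_insert, Finset.mem_singleton, not_or]
    constructor
    · intro h
      refine ⟨?_, ?_, ?_⟩
      · rintro rfl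
        rw [Equiv.swap_apply_of_ne_of_ne hxy hxz, Equiv.swap_apply_left] at h
        exact hxy h.symm
      · rintro rfl
        rw [Equiv.swap_apply_left, Equiv.swap_apply_of_ne_of_ne hxz.symm hyz.symm] at h
        exact hyz h.symm
      · rintro rfl
        rw [Equiv.swap_apply_right, Equiv.swap_apply_right] at h
        exact hxz h
    · rintro ⟨h1, h2, h3⟩
      rw [Equiv.swap_apply_of_ne_of_ne h2 h3, Equiv.swap_apply_of_ne_of_ne h1 h2]
  let τ : ι → Equiv.Perm α := Pi.mulSingle i₀ c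
  have hτ : ∀ i, Equiv.Perm.sign (τ i) = 1 := by
    intro i
    by_cases hi : i = i₀
    · subst hi; simp [τ, hc1]
    · simp [τ, hi]
  let g : ↥H := ⟨mono 1 τ, hbase τ hτ⟩
  have hg : ∀ f : ι → α, g • f = f ↔ f i₀ ∉ ({x, y, z} : Finset α) := by
    intro f
    rw [← hfixc]
    change mono 1 τ f = f ↔ _
    constructor
    · intro h
      have := congrFun h i₀
      change τ i₀ (f i₀) = f i₀ at this
      simpa [τ] using this
    · intro h
      funext i
      rw [mono_apply]
      change τ i (f i) = f i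
      by_cases hi : i = i₀
      · subst hi; simpa [τ] using h
      · simp [τ, hi]
  obtain ⟨w, hw⟩ : ∃ w, w ∉ ({x, y, z} : Finset α) := by
    by_contra hcon
    push Not at hcon
    have := Finset.card_le_card (show (Finset.univ : Finset α) ⊆ {x, y, z} from fun a _ => hcon a)
    rw [Finset.card_univ, hs] at this
    omega
  have hgω : g • (fun _ : ι => w) = fun _ => w := (hg _).2 hw
  have hfix := card_fixed N hN htr hfree g (fun _ => w) hgω
  obtain ⟨f, hf⟩ := IsPGroup.iff_card.1 (hNP.to_le (inf_le_left :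
    N ⊓ Subgroup.centralizer ({g} : Set ↥H) ≤ N))
  rw [hf] at hfix
  have e1 : Nat.card {ω : ι → α // g • ω = ω} = Nat.card {ω : ι → α // ω i₀ ∉ ({x, y, z} : Finset α)} :=
    Nat.card_congr (Equiv.subtypeEquivRight hg)
  rw [e1, card_place i₀ (fun a => a ∉ ({x, y, z} : Finset α))] at hfix
  have e2 : Nat.card {a : α // a ∉ ({x, y, z} : Finset α)} = Fintype.card α - 3 := by
    rw [Nat.card_eq_fintype_card, Fintype.card_subtype_compl, Fintype.card_coe, hs]
  have e3 : Nat.card (ι → α) = Fintype.card α * Nat.card ({j : ι // j ≠ i₀} → α) := by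
    have := card_place (α := α) i₀ (fun _ => True)
    rw [Nat.card_congr (Equiv.subtypeUnivEquiv (fun _ => trivial)),
      Nat.card_congr (Equiv.subtypeUnivEquiv (α := α) (fun _ => trivial)), Nat.card_eq_fintype_card (α := α)] at this
    exact this
  rw [e2] at hfix
  rw [hcardΩ, he] at e3
  obtain ⟨a, -, ha⟩ := (Nat.dvd_prime_pow hp).1 (Dvd.intro _ e3.symm)
  obtain ⟨c', -, hc'⟩ := (Nat.dvd_prime_pow hp).1 (Dvd.intro _ hfix)
  exact arith hp (a := a) (c := c') (by rw [← ha]; exact hα) (by rw [← ha, ← hc']; omega)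

/-- The base group. -/
def baseH (H : Subgroup (Equiv.Perm (ι → α)))
    (hbase : ∀ τ : ι → Equiv.Perm α, (∀ i, Equiv.Perm.sign (τ i) = 1) → mono 1 τ ∈ H) :
    (ι → ↥(alternatingGroup α)) →* ↥H where
  toFun τ := ⟨mono 1 fun i => (τ i : Equiv.Perm α), hbase _ fun i => (τ i).2⟩
  map_one' := by
    apply Subtype.ext
    exact mono_one
  map_mul' a b := by
    apply Subtype.ext
    change _ = mono 1 (fun i => (a i : Equiv.Perm α)) * mono 1 (fun i => (b i : Equiv.Perm α))
    rw [mono_mul]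
    rfl

theorem perfect_pi (hα : 5 ≤ Fintype.card α) : commutator (ι → ↥(alternatingGroup α)) = ⊤ := by
  have h := Subgroup.commutator_pi_pi_of_finite (Gs := fun _ : ι => ↥(alternatingGroup α))
    (fun _ : ι => (⊤ : Subgroup ↥(alternatingGroup α))) (fun _ : ι => (⊤ : Subgroup ↥(alternatingGroup α)))
  have e : Subgroup.pi Set.univ (fun _ : ι => (⊤ : Subgroup ↥(alternatingGroup α))) = ⊤ :=
    Subgroup.pi_top (f := fun _ : ι => ↥(alternatingGroup α)) Set.univ
  have h2 : (fun _ : ι => ⁅(⊤ : Subgroup ↥(alternatingGroup α)), (⊤ : Subgroup ↥(alternatingGroup α))⁆) =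
      fun _ => ⊤ := by
    funext _
    rw [← commutator_def]
    exact commutator_alternatingGroup_eq_top (by rw [Nat.card_eq_fintype_card]; exact hα)
  rw [h2, e] at h
  exact h

/-- The base group lies in the socle. -/
theorem base_le (hα : 5 ≤ Fintype.card α) (H : Subgroup (Equiv.Perm (ι → α)))
    (hbase : ∀ τ : ι → Equiv.Perm α, (∀ i, Equiv.Perm.sign (τ i) = 1) → mono 1 τ ∈ H)
    (T : Subgroup ↥H) (hT : T.Normal) (hc : Subgroup.centralizer (T : Set ↥H) = ⊥)
    (hsch : Schreier.Basic.Sch ↥T) (τ : ι → ↥(alternatingGroup α)) : baseH H hbase τ ∈ T := by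
  let phi : ↥H →* MulAut ↥T := MulAut.conjNormal
  let psi := phi.comp (baseH H hbase)
  have h1 : ⁅psi.range, psi.range⁆ = psi.range := by
    rw [MonoidHom.range_eq_map, ← Subgroup.map_commutator, ← commutator_def, perfect_pi hα]
  obtain ⟨t, ht⟩ := hsch _ h1 ⟨τ, rfl⟩
  have h2 : (t : ↥H)⁻¹ * baseH H hbase τ ∈ Subgroup.centralizer (T : Set ↥H) := by
    rw [Subgroup.mem_centralizer_iff]
    intro u hu
    have h3 := congrArg (fun f : MulAut ↥T => ((f ⟨u, hu⟩ : ↥T) : ↥H)) ht
    change (t : ↥H) * u * (t : ↥H)⁻¹ = ((MulAut.conjNormal (baseH H hbase τ) : MulAut ↥T) ⟨u, hu⟩ : ↥H) at h3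
    rw [MulAut.conjNormal_apply] at h3
    change (t : ↥H) * u * (t : ↥H)⁻¹ = baseH H hbase τ * u * (baseH H hbase τ)⁻¹ at h3
    have h4 : u * ((t : ↥H)⁻¹ * baseH H hbase τ) = (t : ↥H)⁻¹ * ((t : ↥H) * u * (t : ↥H)⁻¹) * baseH H hbase τ := by
      group
    rw [h4, h3]; group
  rw [hc, Subgroup.mem_bot] at h2
  rw [← inv_mul_eq_one.1 h2]
  exact t.2

/-- **2-transitive groups containing the base group contain the alternating group.** -/
theorem alt_le (hα : 5 ≤ Fintype.card α) (hι : 2 ≤ Fintype.card ι) (H : Subgroup (Equiv.Perm (ι → α)))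
    (h2 : Two H)
    (hbase : ∀ τ : ι → Equiv.Perm α, (∀ i, Equiv.Perm.sign (τ i) = 1) → mono 1 τ ∈ H)
    (hcl : ∀ T : Subgroup ↥H, AS ↥H (ι → α) T → Known2 ↥T (Nat.card (ι → α)))
    (hsch : ∀ T : Subgroup ↥H, AS ↥H (ι → α) T → Schreier.Basic.Sch ↥T) :
    alternatingGroup (ι → α) ≤ H := by
  classical
  have hcard : Nat.card (ι → α) = Fintype.card α ^ Fintype.card ι := by
    rw [Nat.card_eq_fintype_card, Fintype.card_fun]
  have h25 : 25 ≤ Nat.card (ι → α) := by
    rw [hcard]
    calc 25 = 5 ^ 2 := by norm_num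
      _ ≤ Fintype.card α ^ 2 := Nat.pow_le_pow_left hα 2
      _ ≤ _ := Nat.pow_le_pow_right (by omega) hι
  have h2' : IsMultiplyPretransitive ↥H (ι → α) 2 := by
    rw [MulAction.is_two_pretransitive_iff]
    intro x y x' y' hxy hxy'
    obtain ⟨h, hh, e1, e2⟩ := h2 x y x' y' hxy hxy'
    exact ⟨⟨h, hh⟩, e1, e2⟩
  have i₀ : ι := Classical.choice (Fintype.card_pos_iff.1 (by omega))
  rcases reduction h2' (by omega) with ⟨N, hN, -, -, ⟨p, hp, hNp⟩, htr, hfree⟩ | ⟨T, hT⟩
  · exact (no_affine hα i₀ H hbase N hN p hp hNp htr hfree).elim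
  · have hfin : Finite ↥T := inferInstance
    let f : (ι → ↥(alternatingGroup α)) →* ↥T :=
      (baseH H hbase).codRestrict T (base_le hα H hbase T hT.normal hT.cent (hsch T hT))
    have hf : Function.Injective f := by
      intro a b hab
      have h1 : mono (1 : Equiv.Perm ι) (fun i => (a i : Equiv.Perm α)) = mono 1 fun i => (b i : Equiv.Perm α) :=
        congrArg (fun t : ↥T => ((t : ↥H) : Equiv.Perm (ι → α))) hab
      funext i
      apply Subtype.ext
      ext c
      have h3 := congrFun (congrArg (fun σ : Equiv.Perm (ι → α) => σ (fun _ => c)) h1) i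
      exact h3
    have hdvd : ((Fintype.card α)! / 2) ^ Fintype.card ι ∣ Nat.card ↥T := by
      have h1 := Subgroup.card_dvd_of_injective f hf
      have h3 : Nat.card (ι → ↥(alternatingGroup α)) = ((Fintype.card α)! / 2) ^ Fintype.card ι := by
        have : Nontrivial α := Fintype.one_lt_card_iff_nontrivial.1 (by omega)
        rw [Nat.card_fun, Nat.card_eq_fintype_card (α := ι)]
        congr 1
        have := two_mul_nat_card_alternatingGroup (α := α)
        rw [Nat.card_perm, Nat.card_eq_fintype_card (α := α)] at this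
        omega
      rwa [h3] at h1
    obtain ⟨e⟩ := HamKnown.iso_alt hα hι hcard hdvd (hcl T hT)
    -- the order of `T`
    have hnt : Nontrivial (ι → α) := Finite.one_lt_card_iff_nontrivial.1 (by omega)
    have hcT : 2 * Nat.card ↥(T.map H.subtype) = (Nat.card (ι → α))! := by
      rw [Nat.card_congr (Subgroup.equivMapOfInjective T H.subtype H.subtype_injective).symm.toEquiv,
        Nat.card_congr e.toEquiv]
      have : Nontrivial (Fin (Nat.card (ι → α))) := by
        rw [← Fintype.one_lt_card_iff_nontrivial, Fintype.card_fin]; omega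
      rw [two_mul_nat_card_alternatingGroup, Nat.card_perm]
      simp
    have hidx : (T.map H.subtype).index = 2 := by
      have h1 := Subgroup.card_mul_index (T.map H.subtype)
      rw [Nat.card_perm, ← hcT, mul_comm 2] at h1
      exact Nat.eq_of_mul_eq_mul_left Nat.card_pos h1
    rw [← Equiv.Perm.eq_alternatingGroup_of_index_eq_two hidx]
    exact Subgroup.map_subtype_le T

end main

end Cfsg.Agent.H904.HamTwo
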