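import Mathlib
import Cfsg.Agent.H904.HamTwo

/-!
# Maximality of the product action wreath products (modulo the classification of 2-transitive groups)
-/

set_option autoImplicit false

namespace Cfsg.Agent.H904.HamMain

open Equiv Cfsg.Agent.H904.HamGroup Cfsg.Agent.H384.TwoTrans

/-- The classification of 2-transitive groups with non-abelian socle and the Schreier property. -/
structure Hyp : Prop where
  cl : ∀ (G Ω : Type) [Group G] [MulAction G Ω] (T : Subgroup G), AS G Ω T → Known2 ↥T (Nat.card Ω)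
  sch : ∀ (K : Type) [Group K] [Finite K] [IsSimpleGroup K], ¬ IsMulCommutative K → Schreier.Basic.Sch K

variable {ι α : Type} [Fintype ι] [DecidableEq ι] [Fintype α] [DecidableEq α]

/-- The alternating group does not consist of monomial maps. -/
theorem not_alt_le (hα : 5 ≤ Fintype.card α) (hι : 2 ≤ Fintype.card ι) :
    ¬ alternatingGroup (ι → α) ≤ W ι α := by
  intro hle
  obtain ⟨i, j, hij⟩ := Fintype.one_lt_card_iff.1 (show 1 < Fintype.card ι by omega)
  obtain ⟨a, b, hab⟩ := Fintype.one_lt_card_iff.1 (show 1 < Fintype.card α by omega)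
  let x : ι → α := fun _ => a
  let y : ι → α := Function.update x i b
  let z : ι → α := Function.update y j b
  have hxy : hammingDist x y = 1 := HamAut.dist_eq_one_iff.2 ⟨i, HamAut.adj_update (Ne.symm hab)⟩
  have hxz : hammingDist x z ≠ 1 := by
    intro h
    obtain ⟨l, hl⟩ := HamAut.dist_eq_one_iff.1 h
    have e1 : l = i := by
      by_contra hne
      have := hl.2 i (Ne.symm hne)
      simp only [x, y, z, Function.update_of_ne hij, Function.update_self] at this
      exact hab this
    have e2 : l = j := by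
      by_contra hne
      have := hl.2 j (Ne.symm hne)
      simp only [x, z, Function.update_self] at this
      exact hab this
    exact hij (e1.symm.trans e2)
  have hne1 : x ≠ y := fun h => by rw [← h] at hxy; simp at hxy
  have hne2 : x ≠ z := fun h => by
    have := congrFun h j
    simp only [x, z, Function.update_self] at this
    exact hab this
  have hcard : 4 ≤ Fintype.card (ι → α) := by
    rw [Fintype.card_fun]
    calc 4 ≤ 5 ^ 1 := by norm_num
      _ ≤ Fintype.card α ^ 1 := Nat.pow_le_pow_left hα 1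
      _ ≤ _ := Nat.pow_le_pow_right (by omega) (by omega)
  obtain ⟨σ, hs, h1, h2⟩ := exists_even_pair hcard (a := x) (b := y) (a' := x) (b' := z)
    (by simp [hne1, hne2])
  obtain ⟨π, τ, rfl⟩ := mem_W'.1 (hle hs)
  apply hxz
  rw [← hxy, ← dist_mono π τ x y, h1, h2]

/-- The core. -/
theorem core (hyp : Hyp) (hα : 5 ≤ Fintype.card α) (hι : 2 ≤ Fintype.card ι)
    (H : Subgroup (Perm (ι → α))) (hDT : DT H)
    (hbase : ∀ τ : ι → Perm α, (∀ i, Perm.sign (τ i) = 1) → mono 1 τ ∈ H) :
    H ≤ W ι α ∨ alternatingGroup (ι → α) ≤ H := by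
  rcases dichotomy hα H hDT with h | h
  · exact Or.inl h
  · right
    refine HamTwo.alt_le hα hι H h hbase (fun T hT => hyp.cl _ _ T hT) (fun T hT => ?_)
    have := hT.simple
    exact hyp.sch ↥T hT.nonab

theorem dt (k m : ℕ) (hm : 5 ≤ m) (hk : 2 ≤ k) (h : ¬ (k = 2 ∧ m % 4 = 2))
    (H : Subgroup (Perm (Fin k → Fin m)))
    (hW : W (Fin k) (Fin m) ⊓ alternatingGroup (Fin k → Fin m) ≤ H) : DT H := by
  rcases eq_or_lt_of_le hk with h2 | h2
  · subst h2
    exact dt_alt_two (by rw [Fintype.card_fin]; omega)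
      (by rw [Fintype.card_fin]; exact fun h' => h ⟨rfl, h'⟩) H hW
  · exact dt_alt (by rw [Fintype.card_fin]; omega) (by rw [Fintype.card_fin]; omega) H hW

theorem main (hyp : Hyp) (m k : ℕ) (hm : 5 ≤ m) (hk : 2 ≤ k) :
    (¬ (k = 2 ∧ m % 4 = 2) → ∃ M : Subgroup ↥(alternatingGroup (Fin k → Fin m)), IsCoatom M ∧
      ∀ σ : ↥(alternatingGroup (Fin k → Fin m)), σ ∈ M ↔
        ∃ (π : Equiv.Perm (Fin k)) (τ : Fin k → Equiv.Perm (Fin m)), ∀ (f : Fin k → Fin m) (i : Fin k),
          (σ : Equiv.Perm (Fin k → Fin m)) f i = τ i (f (π.symm i))) ∧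
    ((∃ σ : Equiv.Perm (Fin k → Fin m), Equiv.Perm.sign σ = -1 ∧
        ∃ (π : Equiv.Perm (Fin k)) (τ : Fin k → Equiv.Perm (Fin m)), ∀ (f : Fin k → Fin m) (i : Fin k),
          σ f i = τ i (f (π.symm i))) →
      ∃ M : Subgroup (Equiv.Perm (Fin k → Fin m)), IsCoatom M ∧
        ∀ σ, σ ∈ M ↔ ∃ (π : Equiv.Perm (Fin k)) (τ : Fin k → Equiv.Perm (Fin m)),
          ∀ (f : Fin k → Fin m) (i : Fin k), σ f i = τ i (f (π.symm i))) := by
  have hα : 5 ≤ Fintype.card (Fin m) := by rw [Fintype.card_fin]; exact hm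
  have hι : 2 ≤ Fintype.card (Fin k) := by rw [Fintype.card_fin]; exact hk
  have hnot := not_alt_le hα hι
  constructor
  · intro h
    refine ⟨(W (Fin k) (Fin m)).subgroupOf (alternatingGroup (Fin k → Fin m)), ⟨?_, ?_⟩, fun σ => ?_⟩
    · intro htop
      apply hnot
      intro σ hσ
      have : (⟨σ, hσ⟩ : ↥(alternatingGroup (Fin k → Fin m))) ∈
          (W (Fin k) (Fin m)).subgroupOf (alternatingGroup (Fin k → Fin m)) := by
        rw [htop]; trivial
      exact this
    · intro K hK
      have hW : W (Fin k) (Fin m) ⊓ alternatingGroup (Fin k → Fin m) ≤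
          K.map (alternatingGroup (Fin k → Fin m)).subtype := by
        rintro σ ⟨h1, h2⟩
        exact ⟨⟨σ, h2⟩, hK.le h1, rfl⟩
      rcases core hyp hα hι _ (dt k m hm hk h _ hW)
        (fun τ hτ => hW ⟨mono_mem 1 τ, base_mem_alt τ hτ⟩) with h1 | h1
      · exfalso
        apply hK.not_ge
        intro σ hσ
        exact h1 ⟨σ, hσ, rfl⟩
      · rw [eq_top_iff]
        intro σ _
        obtain ⟨σ', h2, h3⟩ := h1 σ.2
        have : σ' = σ := Subtype.ext h3
        rw [← this]; exact h2
    · exact Iff.rfl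
  · rintro ⟨σ₀, hσ₀, hσW⟩
    refine ⟨W (Fin k) (Fin m), ⟨fun htop => hnot (htop ▸ le_top), ?_⟩, fun σ => Iff.rfl⟩
    intro H hH
    rcases core hyp hα hι H (dt_W (by omega) H hH.le) (fun τ _ => hH.le (mono_mem 1 τ)) with h1 | h1
    · exact absurd h1 hH.not_ge
    · rw [eq_top_iff]
      intro σ _
      rcases Int.units_eq_one_or (Perm.sign σ) with hs | hs
      · exact h1 hs
      · have h2 : σ₀⁻¹ * σ ∈ H := h1 (by
          change Perm.sign _ = 1
          rw [Perm.sign_mul, Perm.sign_inv, hσ₀, hs]; rfl)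
        have h3 : σ = σ₀ * (σ₀⁻¹ * σ) := by group
        rw [h3]
        exact mul_mem (hH.le hσW) h2

end Cfsg.Agent.H904.HamMain
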